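/-
Rank three actions of unitary groups: the abstract chunks `TY`, `R3`, `HA`.
-/
import Cfsg.Agent.H0.RU0
import Cfsg.Agent.H13.R3_2

set_option autoImplicit false
set_option linter.unusedSectionVars false
set_option linter.unusedVariables false

open Module MulAction H13.R3 H0.RU
namespace H19.RU

universe u

section
variable {G : Type u} [Group G] [Fintype G] {H : Subgroup G} {T : Finset G} {η η' : ℂ} {Y Y' : Submodule ℂ (G → ℂ)}

theorem ty : TY.{u} := fun G X _ _ _ H T η φ hT φ0 η0 hH he => by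
  refine ⟨fun e => φ0 (funext fun x => ?_), fun ψ h => ?_⟩
  · simpa using congrFun (Submodule.span_eq_bot.1 e _ ⟨x, rfl⟩) 1
  have k : (∀ h ∈ H, ∀ g, ψ (h * g) = ψ g) ∧ (∀ k, (fun g => ψ (g * k)) ∈ Yo G φ) ∧
      ∀ g, ∑ t ∈ T, (ψ g - ψ (g * t)) = η * ψ g := by
    induction h using Submodule.span_induction with
    | mem _ h =>
      obtain ⟨x, rfl⟩ := h
      refine ⟨fun h m g => by simp only [mul_smul, hH h m], fun k => Submodule.subset_span ⟨k • x, by simp [mul_smul]⟩, fun g => ?_⟩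
      rw [← he]
      exact Finset.sum_nbij' (fun t => g * t * g⁻¹) (fun t => g⁻¹ * t * g⁻¹⁻¹) (fun t m => hT t m g) (fun t m => hT t m _)
        (fun t _ => by group) (fun t _ => by group) fun t _ => by simp [mul_smul]
    | zero => exact ⟨fun _ _ _ => rfl, fun _ => zero_mem _, by simp⟩
    | add a b _ _ h k => exact ⟨fun x m g => by simp [h.1 x m, k.1 x m], fun x => add_mem (h.2.1 x) (k.2.1 x), fun g => by
        simp only [Pi.add_apply, mul_add, ← h.2.2, ← k.2.2, ← Finset.sum_add_distrib, add_sub_add_comm]⟩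
    | smul c a _ h => exact ⟨fun x m g => by simp [h.1 x m], fun x => Submodule.smul_mem _ c (h.2.1 x), fun g => by
        simp only [Pi.smul_apply, smul_eq_mul, mul_left_comm η, ← h.2.2, Finset.mul_sum, mul_sub]⟩
  refine ⟨k.1, k.2.1, (mul_eq_zero.1 ?_).resolve_left η0, k.2.2⟩
  rw [Finset.mul_sum, ← Finset.sum_congr rfl fun g _ => k.2.2 g, Finset.sum_comm]
  exact Finset.sum_eq_zero fun t _ => by
    rw [Finset.sum_sub_distrib, sub_eq_zero]; exact (Equiv.sum_comp (Equiv.mulRight t) ψ).symm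

/-- bi-invariant functions -/
def BI (H : Subgroup G) : Submodule ℂ (G → ℂ) where
  carrier := {ψ | ∀ a ∈ H, ∀ b ∈ H, ∀ g, ψ (a * g * b) = ψ g}
  zero_mem' := fun _ _ _ _ _ => rfl
  add_mem' h k := fun a m b n g => by simp [h a m b n, k a m b n]
  smul_mem' c _ h := fun a m b n g => by simp [h a m b n]

theorem bi_dep (h : dc H H = 3) (v : Fin 4 → G → ℂ) (hv : ∀ i, v i ∈ BI H) : ¬ LinearIndependent ℂ v := fun l => by
  let r : orbitRel.Quotient H (G ⧸ H) → G := fun c => (Quotient.out c).out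
  have := Fintype.ofFinite (orbitRel.Quotient H (G ⧸ H))
  have := (l.map (f := LinearMap.funLeft ℂ ℂ r) (Submodule.disjoint_def.2 fun ψ m e => funext fun g => ?_)).fintype_card_le_finrank
  · rw [finrank_fintype_fun_eq_card, ← Nat.card_eq_fintype_card (α := orbitRel.Quotient _ _), show Nat.card _ = 3 from h] at this
    simp at this
  obtain ⟨j, e'⟩ := Quotient.mk_out (s := orbitRel H (G ⧸ H)) (g : G ⧸ H)
  obtain ⟨a, ha, b, hb, e'⟩ := (dc_iff (g := g)).1 ⟨j, j.2, e'.trans (QuotientGroup.out_eq' _).symm⟩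
  rw [← Submodule.span_le.2 (Set.range_subset_iff.2 hv) m a ha b hb, e']
  exact congrFun e (Quotient.mk _ (g : G ⧸ H))

theorem ex_bi (h0 : Y ≠ ⊥) (h1 : ∀ ψ ∈ Y, ∀ h ∈ H, ∀ g, ψ (h * g) = ψ g) (h2 : ∀ ψ ∈ Y, ∀ k, (fun g => ψ (g * k)) ∈ Y) :
    ∃ b ∈ Y, b ≠ 0 ∧ b ∈ BI H := by
  classical
  obtain ⟨ψ, m, n⟩ := (Submodule.ne_bot_iff _).1 h0
  obtain ⟨k, n⟩ := Function.ne_iff.1 n
  have e : ∀ g, (∑ h : H, fun g => ψ (g * (h * k))) g = ∑ h : H, ψ (g * (h * k)) := fun g => Finset.sum_apply ..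
  refine ⟨_, Submodule.sum_mem (t := Finset.univ) _ fun (h : H) _ => h2 ψ m (h * k), fun z => n ?_, fun a ha b hb g => ?_⟩
  · have := (e 1).symm.trans (congrFun z 1)
    simpa [h1 ψ m _ (Subtype.prop _)] using this
  · rw [e, e, ← Equiv.sum_comp (Equiv.mulLeft (⟨b, hb⟩ : H)) fun h : H => ψ (g * (h * k))]
    simp [mul_assoc, h1 ψ m a ha]

theorem ex_orth {X : Type*} [Fintype X] (W : Submodule ℂ (X → ℂ)) (ψ : X → ℂ) :
    ∃ w ∈ W, ∀ v ∈ W, (ψ - w) ⬝ᵥ star v = 0 := by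
  let e := WithLp.linearEquiv 2 ℂ (X → ℂ)
  obtain ⟨y, hy, z, hz, k⟩ := (W.comap e.toLinearMap : Submodule ℂ (EuclideanSpace ℂ X)).exists_add_mem_mem_orthogonal (e.symm ψ)
  refine ⟨e y, hy, fun v hv => ?_⟩
  rw [show ψ - e y = e z by rw [← e.apply_symm_apply ψ, k, map_add, add_sub_cancel_left]]
  exact hz (e.symm v) hv

open scoped ComplexOrder in
theorem r3 : R3.{u} := fun G _ _ H T η η' Y Y' h hY hY' d => by
  replace d : Y ⊓ Y' = ⊥ := d.elim (fun n => (Submodule.eq_bot_iff _).2 fun ψ m => funext fun g => (mul_eq_zero.1 (by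
    rw [sub_mul, ← (hY.2 ψ m.1).2.2.2, ← (hY'.2 ψ m.2).2.2.2, sub_self])).resolve_left (sub_ne_zero.2 n)) id
  let π : G → Quotient (QuotientGroup.rightRel H) := Quotient.mk _
  have mL : ∀ {ψ}, ψ ∈ LinearMap.range (LinearMap.funLeft ℂ ℂ π) ↔ ∀ h ∈ H, ∀ g, ψ (h * g) = ψ g := fun {ψ} => ⟨by
    rintro ⟨f, rfl⟩ h m g
    exact congrArg f (Quotient.sound (QuotientGroup.rightRel_apply.2 (by simpa using m))), fun k =>
    ⟨Quotient.lift ψ fun a b r => by rw [← k _ (QuotientGroup.rightRel_apply.1 r) a, inv_mul_cancel_right], rfl⟩⟩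
  have fL : finrank ℂ (LinearMap.range (LinearMap.funLeft ℂ ℂ π)) = H.index := by
    have := Fintype.ofFinite (Quotient (QuotientGroup.rightRel H))
    rw [LinearMap.finrank_range_of_inj (LinearMap.funLeft_injective_of_surjective _ _ _ Quotient.mk_surjective),
      finrank_fintype_fun_eq_card, ← Nat.card_eq_fintype_card,
      Nat.card_congr (QuotientGroup.quotientRightRelEquivQuotientLeftRel H), Subgroup.index]
  generalize LinearMap.range (LinearMap.funLeft ℂ ℂ π) = L at mL fL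
  have hW : ∀ ψ ∈ Y ⊔ Y', ψ ∈ L ∧ (∀ k, (fun g => ψ (g * k)) ∈ Y ⊔ Y') ∧ ∑ g, ψ g = 0 := fun ψ m => by
    obtain ⟨a, ha, b, hb, rfl⟩ := Submodule.mem_sup.1 m
    obtain ⟨a1, a2, a3, -⟩ := hY.2 a ha
    obtain ⟨b1, b2, b3, -⟩ := hY'.2 b hb
    exact ⟨add_mem (mL.2 a1) (mL.2 b1), fun k => Submodule.add_mem_sup (a2 k) (b2 k), by simp [Finset.sum_add_distrib, a3, b3]⟩
  have c0 : ∀ c : ℂ, ∑ g, (c • (1 : G → ℂ)) g = 0 → c = 0 := fun c e => by simpa using e
  let O : Submodule ℂ (G → ℂ) :=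
    { carrier := {ψ | ψ ∈ L ∧ ∑ g, ψ g = 0 ∧ ∀ v ∈ Y ⊔ Y', ψ ⬝ᵥ star v = 0}
      zero_mem' := ⟨zero_mem _, by simp, by simp⟩
      add_mem' := fun h k => ⟨add_mem h.1 k.1, by simp [Finset.sum_add_distrib, h.2.1, k.2.1], fun v m => by
        rw [add_dotProduct, h.2.2 v m, k.2.2 v m, add_zero]⟩
      smul_mem' := fun c _ h => ⟨L.smul_mem c h.1, by simp [← Finset.mul_sum, h.2.1], fun v m => by
        rw [smul_dotProduct, h.2.2 v m, smul_zero]⟩ }
  have hO : O = ⊥ := by_contra fun n => by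
    obtain ⟨b, ⟨-, b1, b2⟩, b0, hb⟩ := ex_bi n (fun ψ m => mL.1 m.1) fun ψ m k => ⟨mL.2 fun h r g => by
      simp only [mul_assoc, mL.1 m.1 h r], (Equiv.sum_comp (Equiv.mulRight k) ψ).trans m.2.1, fun v r => by
        rw [← m.2.2 _ ((hW v r).2.1 k⁻¹), dotProduct, dotProduct, ← Equiv.sum_comp (Equiv.mulRight k) fun g => ψ g * _]
        simp⟩
    obtain ⟨y, y1, y0, hy⟩ := ex_bi hY.1 (fun ψ m => (hY.2 ψ m).1) fun ψ m => (hY.2 ψ m).2.1
    obtain ⟨z, z1, z0, hz⟩ := ex_bi hY'.1 (fun ψ m => (hY'.2 ψ m).1) fun ψ m => (hY'.2 ψ m).2.1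
    refine bi_dep h ![1, y, z, b] (fun i => by fin_cases i <;> first | assumption | exact fun _ _ _ _ _ => rfl)
      (Fintype.linearIndependent_iff.2 fun c e => ?_)
    simp only [Fin.sum_univ_four, Matrix.cons_val] at e
    have w := Submodule.add_mem_sup (Y.smul_mem (c 1) y1) (Y'.smul_mem (c 2) z1)
    have e0 : c 0 = 0 := c0 _ (by
      have := congrArg (∑ g, · g) e
      simpa [Finset.sum_add_distrib, ← Finset.mul_sum, (hY.2 y y1).2.2.1, (hY'.2 z z1).2.2.1, b1] using this)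
    rw [e0, zero_smul, zero_add] at e
    have e3 : c 3 • b = 0 := dotProduct_self_star_eq_zero.1 (by
      rw [smul_dotProduct, eq_neg_of_add_eq_zero_right e, b2 _ (neg_mem w), smul_zero])
    rw [e3, add_zero] at e
    have e1 : c 1 • y = 0 := d.le ⟨Y.smul_mem _ y1, eq_neg_of_add_eq_zero_left e ▸ neg_mem (Y'.smul_mem _ z1)⟩
    rw [e1, zero_add] at e
    intro i
    fin_cases i
    exacts [e0, (smul_eq_zero.1 e1).resolve_right y0, (smul_eq_zero.1 e).resolve_right z0, (smul_eq_zero.1 e3).resolve_right b0]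
  have e : L = (ℂ ∙ 1) ⊔ (Y ⊔ Y') := le_antisymm (fun ψ m => by
    obtain ⟨c, hc⟩ : ∃ c : ℂ, ∑ g, (ψ - c • (1 : G → ℂ)) g = 0 :=
      ⟨(∑ g, ψ g) / Fintype.card G, by simp [Finset.sum_sub_distrib, mul_div_cancel₀]⟩
    obtain ⟨w, hw, k⟩ := ex_orth (Y ⊔ Y') (ψ - c • 1)
    have : ψ - c • 1 - w = 0 := hO.le ⟨sub_mem (sub_mem m (mL.2 fun _ _ _ => rfl)) (hW w hw).1, by
      simp only [Pi.sub_apply _ w, Finset.sum_sub_distrib, hc, (hW w hw).2.2, sub_self], k⟩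
    rw [sub_sub, sub_eq_zero] at this
    exact this ▸ Submodule.add_mem_sup (Submodule.smul_mem _ _ (Submodule.mem_span_singleton_self _)) hw)
    (sup_le ((Submodule.span_singleton_le_iff_mem _ _).2 (mL.2 fun _ _ _ => rfl)) fun ψ m => (hW ψ m).1)
  have h1 := Submodule.finrank_sup_add_finrank_inf_eq (ℂ ∙ (1 : G → ℂ)) (Y ⊔ Y')
  have h2 := Submodule.finrank_sup_add_finrank_inf_eq Y Y'
  rw [← e, fL, finrank_span_singleton one_ne_zero, (Submodule.eq_bot_iff (_ ⊓ _)).2 fun ψ m => by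
    obtain ⟨c, rfl⟩ := Submodule.mem_span_singleton.1 m.1
    rw [c0 c (hW _ m.2).2.2, zero_smul]] at h1
  rw [d] at h2
  simp only [finrank_bot] at h1 h2
  omega

theorem ha0 {E : Type*} [AddCommGroup E] [Module ℂ E] [FiniteDimensional ℂ E] (ρ : G →* Module.End ℂ E) {A Z : Subgroup G}
    (hT : ∀ t ∈ T, ∀ t' ∈ T, IsConj t t') (ZA : Z ≤ A) (Z0 : Z ≠ ⊥) (ab : ∀ a ∈ A, ∀ b ∈ A, a * b = b * a)
    (hZ : ∀ z ∈ Z, z ≠ 1 → z ∈ T) (hA : ∀ a ∈ A, a ∉ Z → ∀ z ∈ Z, IsConj a (a * z)) (hY : ∑ s ∈ T, (1 - ρ s) = η • 1) :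
    ∃ m : ℕ, η * finrank ℂ E = T.card * Nat.card A * m := by
  classical
  let χ : G → ℂ := fun g => LinearMap.trace ℂ E (ρ g)
  have cχ : ∀ {a b}, IsConj a b → χ a = χ b := fun r => by
    obtain ⟨g, rfl⟩ := isConj_iff.1 r
    simp only [χ]
    rw [map_mul ρ, map_mul ρ, LinearMap.trace_mul_cycle, ← map_mul ρ, inv_mul_cancel, map_one, one_mul]
  have χ1 : χ 1 = finrank ℂ E := by simp [χ]
  obtain ⟨t, tZ, t1⟩ := (Z.bot_or_exists_ne_one).resolve_left Z0
  have e1 : η * finrank ℂ E = T.card * (χ 1 - χ t) := by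
    have := congrArg (LinearMap.trace ℂ E) hY
    rw [map_sum, Finset.sum_congr rfl fun s m => show _ = χ 1 - χ t by
      rw [cχ (hT t (hZ t tZ t1) s m), ← map_one ρ]; exact map_sub ..] at this
    simpa [eq_comm, mul_sub] using this
  let _ : CommGroup A := { (inferInstance : Group A) with mul_comm := fun a b => Subtype.ext (ab a a.2 b b.2) }
  have : NeZero ((Monoid.exponent A : ℕ) : ℂ) := ⟨Nat.cast_ne_zero.2 Monoid.exponent_ne_zero_of_finite⟩
  obtain ⟨l, hl⟩ := CommGroup.exists_apply_ne_one_of_hasEnoughRootsOfUnity A ℂ (a := ⟨t, ZA tZ⟩) fun e => t1 (congrArg Subtype.val e)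
  have c0 : (Nat.card A : ℂ) ≠ 0 := Nat.cast_ne_zero.2 Nat.card_pos.ne'
  let s : Module.End ℂ E := ∑ a : A, (l a : ℂ) • ρ a
  have ss : s * s = (Nat.card A : ℂ) • s := by
    rw [Finset.sum_mul, Finset.sum_congr rfl fun (a : A) _ => show _ = s by
      simp only [s]
      rw [Finset.mul_sum, ← Equiv.sum_comp (Equiv.mulLeft a) fun b : A => (l b : ℂ) • ρ b]
      simp [smul_smul, mul_comm]]
    simp [Nat.cast_smul_eq_nsmul]
  have hp : IsIdempotentElem ((Nat.card A : ℂ)⁻¹ • s) := by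
    rw [IsIdempotentElem, smul_mul_smul_comm, ss, smul_smul, inv_mul_cancel_right₀ c0]
  have e2 := (LinearMap.IsIdempotentElem.isProj_range _ hp).trace
  let f : A → ℂ := fun a => χ a - if a = 1 then χ 1 - χ t else 0
  have fZ : ∀ a : A, a.1 ∈ Z → f a = χ t := fun a m => by
    by_cases e : a = 1
    · simp [f, e]
    · simp [f, e, cχ (hT _ (hZ _ m fun r => e (Subtype.ext r)) _ (hZ t tZ t1))]
  have ft : ∀ a : A, f (a * ⟨t, ZA tZ⟩) = f a := fun a => by
    by_cases m : a.1 ∈ Z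
    · rw [fZ a m, fZ _ (mul_mem m tZ)]
    · have n : ∀ {b : A}, b.1 ∉ Z → b ≠ 1 := fun m e => m (e ▸ one_mem Z)
      simp only [f, n m, n (b := a * ⟨t, ZA tZ⟩) (mt (mul_mem_cancel_right tZ).1 m), if_false]
      rw [cχ (hA a a.2 m t tZ)]; rfl
  have e3 : ∑ a : A, (l a : ℂ) * f a = 0 := by
    have := Equiv.sum_comp (Equiv.mulRight (⟨t, ZA tZ⟩ : A)) fun a => (l a : ℂ) * f a
    simp only [Equiv.coe_mulRight, ft, map_mul, Units.val_mul, mul_right_comm _ (l ⟨t, ZA tZ⟩ : ℂ), ← Finset.sum_mul] at this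
    exact (mul_right_eq_self₀.1 this).resolve_left (mt Units.val_eq_one.1 hl)
  simp only [f, mul_sub, Finset.sum_sub_distrib, mul_ite, mul_zero, Finset.sum_ite_eq', Finset.mem_univ, if_true, map_one,
    Units.val_one, one_mul, sub_eq_zero] at e3
  simp only [s, map_smul, map_sum, smul_eq_mul] at e2
  exact ⟨_, by rw [e1, ← e3, mul_assoc, ← e2, mul_inv_cancel_left₀ c0]⟩

theorem ha : HA.{u} := fun G _ _ H A Z T η Y hT ZA Z0 ab hZ hA hY => by
  let ρ : G →* Module.End ℂ Y :=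
    { toFun := fun k => (LinearMap.funLeft ℂ ℂ (· * k)).restrict fun ψ m => (hY.2 ψ m).2.1 k
      map_one' := by ext ψ g; exact congrArg ψ.1 (mul_one g)
      map_mul' := fun a b => by ext ψ g; exact congrArg ψ.1 (mul_assoc g a b).symm }
  have hρ : ∀ k ψ g, (ρ k ψ).1 g = ψ.1 (g * k) := fun _ _ _ => rfl
  refine ha0 ρ hT ZA Z0 ab hZ hA ?_
  ext ψ g
  simpa [hρ, -Finset.sum_sub_distrib] using (hY.2 ψ ψ.2).2.2.2 g
end

end H19.RU
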