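/-
S5934: proper subgroups, and subgroups without elements of order 43.
-/
import Cfsg.Agent.H7.ME1

set_option autoImplicit false
set_option maxRecDepth 100000

namespace H19.ME
open H18.E7 (G M xr)
open Matrix Subgroup H7.ME

theorem cw_ind {L : List (List ℕ)} (p : G → Prop) (h1 : p 1) (hm : ∀ a b, p a → p b → p (a * b)) (hl : ∀ l ∈ L, p (wd l)) :
    ∀ g ∈ cw L, p g := by
  have pw : ∀ a, p a → ∀ n : ℕ, p (a ^ n) := fun a h n => by
    induction n with
    | zero => simpa using h1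
    | succ n ih => rw [pow_succ]; exact hm _ _ ih h
  intro g hg
  induction hg using closure_induction with
  | mem x hx => obtain ⟨l, a, rfl⟩ := hx; exact hl l a
  | one => exact h1
  | mul x y _ _ a b => exact hm _ _ a b
  | inv x _ a =>
    rw [show x⁻¹ = x ^ (orderOf x - 1) from inv_eq_of_mul_eq_one_right (by
      rw [← pow_succ', Nat.sub_add_cancel (orderOf_pos x), pow_orderOf_eq_one])]
    exact pw _ a _

theorem ex_zip {α β : Type} {L : List α} {E : List β} (h : Nat.beq E.length L.length = true) {l : α} (hl : l ∈ L) :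
    ∃ e, (l, e) ∈ L.zip E := by
  rw [← List.map_fst_zip (l₁ := L) (l₂ := E) (Nat.eq_of_beq_eq_true h).ge, List.mem_map] at hl
  obtain ⟨⟨a, e⟩, k, rfl⟩ := hl
  exact ⟨e, k⟩

theorem getD_mem (T : List (List ℕ)) (i : ℕ) : wd (T.getD i []) ∈ cw T := by
  simpa [iw] using iw_mem T [i]

theorem le_cw (W : List ℕ) : closure ((Nn W : Set G) ∪ {x0}) ≤ cw ([0] :: gN W) :=
  (closure_le _).2 (Set.union_subset (closure_mono (by rintro _ ⟨l, h, rfl⟩; exact ⟨l, List.mem_cons_of_mem _ h, rfl⟩))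
    (by rintro _ rfl; exact (show wd [0] = x0 from wd_one 0) ▸ wd_mem List.mem_cons_self))

theorem pr (L : List (List ℕ)) (Θ r : ℕ) (h : prc L Θ r = true) : cw L ≠ ⊤ := fun e => by
  simp only [prc, Bool.and_eq_true, List.all_eq_true, Bool.not_eq_true'] at h
  have := cw_ind (L := L) (fun g => Commute (M g) (toM 56 56 Θ)) (by simp) (fun a b x y => by rw [map_mul]; exact x.mul_left y)
    (fun l hl => by have := eqm_eq (h.1 l hl); rwa [toM_wma, toM_mul, ← M_wd] at this) (X r) (e ▸ mem_top _)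
  refine eqm_ne h.2 (by decide) (by decide) ?_
  rw [toM_ap, toM_mul, ← M_wd, wd_one]; exact this

theorem pt (L T : List (List ℕ)) (es : List (List (List ℕ))) (r i j : ℕ) (h : prt L T es r i j = true) : cw L ≠ ⊤ := fun e => by
  simp only [prt, Bool.and_eq_true, List.all_eq_true, Bool.not_eq_true'] at h
  obtain ⟨⟨⟨h1, h2⟩, h3⟩, h4⟩ := h
  have c : ∀ a ∈ cw T, ∀ b ∈ cw T, Commute a b := cw_ind _ (fun _ _ => .one_left _) (fun a b x y c hc => (x c hc).mul_left (y c hc))
    fun l hl => cw_ind _ (.one_right _) (fun a b x y => x.mul_right y) fun t ht => wcm_iff.1 (h1 l hl t ht)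
  have n : ∀ g ∈ cw L, ∀ a ∈ cw T, g * a * g⁻¹ ∈ cw T := cw_ind _ (by simp) (fun a b x y c hc => by
      simpa [mul_assoc] using x _ (y c hc)) fun l hl => by
    obtain ⟨E, hE⟩ := ex_zip h2 hl
    refine cw_ind _ (by simp) (fun a b x y => by simpa [mul_assoc] using mul_mem x y) fun t ht => ?_
    obtain ⟨w, hw⟩ := ex_zip (h3 _ hE).1 ht
    have := weq_iff.1 ((h3 _ hE).2 _ hw)
    rw [wd_append, wd_append] at this
    rw [this, mul_inv_cancel_right]; exact iw_mem _ _
  have := c _ (n (X r) (e ▸ mem_top _) _ (getD_mem T i)) _ (getD_mem T j)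
  rw [← Bool.not_eq_true, wcm_iff, wd_cons, wd_append, wd_one, ← mul_assoc] at h4
  rw [X_inv] at this
  exact h4 this

theorem nf (v : Fv) (fx : FX) (W : List ℕ) (k S Ls : ℕ) (h : nfc ([0] :: gN W) k S Ls = true) :
    ∀ a ∈ closure ((Nn W : Set G) ∪ {x0}), orderOf a ≠ 43 := fun a ha o => by
  generalize hL : [0] :: gN W = L at h
  simp only [nfc, Bool.and_eq_true, List.all_eq_true, Bool.not_eq_true', frc_eq, Nat.ble_eq] at h
  obtain ⟨⟨h1, h2⟩, h3⟩ := h
  have k64 : k ≤ 64 := by omega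
  let U := LinearMap.range (toM 56 k S).mulVecLin
  have := cw_ind (L := L) (fun g => ∀ v ∈ U, M g *ᵥ v ∈ U) (by simp) (fun a b x y v hv => by
      rw [map_mul, ← mulVec_mulVec]; exact x _ (y v hv)) (fun l hl => by
    rintro _ ⟨c, rfl⟩
    have := eqm_eq (h3 l hl) (by decide) k64
    rw [toM_mul _ _ _ (by decide) k64, toM_wma _ _ k64] at this
    exact ⟨toM k k (mul 56 Ls (wma l S)) *ᵥ c, by
      rw [mulVecLin_apply, mulVecLin_apply, mulVec_mulVec, mulVec_mulVec, this]⟩) a (hL ▸ le_cw W ha)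
  have f := fx.2.2.2 a U ((rank_le_width (toM 56 k S)).trans h1) this (o ▸ pow_orderOf_eq_one a)
  refine eqm_ne h2 (by decide) k64 ?_
  rw [toM_zero]
  refine Matrix.toLin'.injective (LinearMap.ext fun c => ?_)
  simpa using v.a43 a o _ (pow_one a ▸ f _ ⟨c, rfl⟩)

theorem nb (v : Fv) (W : List ℕ) (Bs Ts : List ℕ) (h : nbc ([0] :: gN W) Bs Ts = true) :
    ∀ a ∈ closure ((Nn W : Set G) ∪ {x0}), orderOf a ≠ 43 := fun a ha o => by
  generalize hL : [0] :: gN W = L at h
  simp only [nbc, Bool.and_eq_true, List.all_eq_true, Bool.not_eq_true', List.mem_range] at h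
  obtain ⟨⟨h1, h2⟩, h3⟩ := h
  let T : ℕ → Matrix (Fin 56) (Fin 8) F := fun i => toM 56 8 (Ts.getD i 0)
  let bil : (Fin 8 → F) → (Fin 8 → F) → V := fun x y => ∑ i : Fin 8, x i • (T i *ᵥ y)
  obtain ⟨B, hB⟩ := cw_ind (L := L) (fun g => ∃ B : GL (Fin 8) F, ∀ x y, M g *ᵥ bil x y = bil (B.1 *ᵥ x) (B.1 *ᵥ y))
    ⟨1, by simp⟩ (fun a b ⟨A, x⟩ ⟨B, y⟩ => ⟨A * B, fun u w => by
      rw [map_mul, ← mulVec_mulVec, y, x, mulVec_mulVec, mulVec_mulVec, Units.val_mul]⟩) (fun l hl => by
    obtain ⟨b, hb⟩ := ex_zip h1 hl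
    have s := eqm_eq (h3 _ hb).1
    rw [toM_mul, toM_Id] at s
    refine ⟨⟨_, _, s, s⟩, fun x y => ?_⟩
    have k : ∀ i : Fin 8, M (wd l) * T i = (∑ j : Fin 8, toM 8 8 b j i • T j) * toM 8 8 b := fun i => by
      have := eqm_eq ((h3 _ hb).2 i i.2)
      rw [toM_wma, toM_mul] at this
      refine this.trans (congrArg (· * _) ?_)
      have : ∀ m, toM 56 8 (Nat.rec (motive := fun _ => ℕ) 0
          (fun j acc => cond (b.testBit (64 * i + j)) (Nat.xor acc (Ts.getD j 0)) acc) m) =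
          ∑ j ∈ Finset.range m, bt b (64 * i + j) • T j := fun m => by
        induction m with
        | zero => exact toM_zero _ _
        | succ m ih =>
          rw [Finset.sum_range_succ, ← ih, bt]
          dsimp only
          cases b.testBit (64 * i + m)
          · simp
          · rw [cond_true, if_pos rfl, one_smul]; exact toM_xor _ _ _ _
      exact (this 8).trans (Fin.sum_univ_eq_sum_range (fun j => bt b (64 * i + j) • T j) 8).symm
    simp only [bil, mulVec_sum, mulVec_smul, mulVec_mulVec, k, Matrix.sum_mul, sum_mulVec, Finset.smul_sum, smul_mul,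
      smul_mulVec, smul_smul]
    rw [Finset.sum_comm]
    refine Finset.sum_congr rfl fun j _ => ?_
    rw [← Finset.sum_smul]
    simp [mulVec, dotProduct, mul_comm]) a (hL ▸ le_cw W ha)
  have pw : ∀ (n : ℕ) x y, M (a ^ n) *ᵥ bil x y = bil ((B ^ n).1 *ᵥ x) ((B ^ n).1 *ᵥ y) := fun n => by
    induction n with
    | zero => simp
    | succ n ih => intro x y; rw [pow_succ, map_mul, ← mulVec_mulVec, hB, ih, mulVec_mulVec, mulVec_mulVec, pow_succ, Units.val_mul]
  have o' : orderOf (a ^ Nat.card (GL (Fin 8) F)) = 43 := by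
    rw [Nat.Coprime.orderOf_pow, o]
    rw [o, card_GL_field, ZMod.card]; decide +kernel
  refine eqm_ne h2 (by decide) (by decide) ?_
  rw [toM_zero]
  refine Matrix.toLin'.injective (LinearMap.ext fun y => ?_)
  have := v.a43 _ o' (bil (Pi.single 0 1) y) (by rw [pw, pow_card_eq_one', Units.val_one, one_mulVec, one_mulVec])
  have e : T 0 *ᵥ y = 0 := by simpa [bil, Pi.single_apply] using this
  rw [toLin'_apply, toLin'_apply, zero_mulVec]; exact e

theorem pn (v : Fv) (fx : FX) : PN := ⟨pr, pt, nf v fx, nb v⟩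

end H19.ME
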