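import Cfsg.Agent.H24.ND0

/-! S4780: chunk `DG`. -/

set_option autoImplicit false
set_option linter.unusedVariables false

open Subgroup MulAction H19 H20 H6 Cfsg H3.PT H3.GR H3.ND Module H24.ND
open scoped commutatorElement

namespace H19.NG

universe u

theorem dg : DG.{u} := by
  intro G _ _ P H p hn hp h1 h2 h3 h4 ψ hψ χ hχ hd
  have nP : H ≤ N(P) := normalIn_top.norms le_top
  have hc : (#P).Coprime (P.relIndex ⊤) := by
    rw [← h4, relIndex_sup_of_norm nP]
    exact h1.coprime ((PiN.of_not_dvd h2).dvd (Dvd.intro_left _ (card_inf_mul_relIndex P H)))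
  obtain ⟨η, a1, a2⟩ := ext_of_hall normalIn_top hc hψ
  have hP := H20.le_inertia (L := ⊤) (irr_cinv hψ) le_top
  have hT := normalIn_top.of_le hP le_top
  obtain ⟨θ, b1, b2, rfl⟩ := corr_surj normalIn_top hψ hχ hd
  obtain ⟨β, c1, c2, rfl⟩ := H20.gallagher_surj hT (irr_chr a1) (a2 ▸ hψ) b1
    (by rwa [← dot_Res_right, a2])
  have hG : ⁅(⊤ : Subgroup G), ⊤⁆ ≤ P := by
    refine commutator_le.2 fun x hx y hy => ?_
    obtain ⟨a, ha, c, hc, rfl⟩ := (mem_sup_of_norm nP).1 (h4.ge hx)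
    obtain ⟨b, hb, d, hd, rfl⟩ := (mem_sup_of_norm nP).1 (h4.ge hy)
    rw [← QuotientGroup.eq_one_iff, ← QuotientGroup.mk'_apply, map_commutatorElement, map_mul, map_mul,
      QuotientGroup.mk'_apply P a, QuotientGroup.mk'_apply P b, (QuotientGroup.eq_one_iff a).2 ha,
      (QuotientGroup.eq_one_iff b).2 hb, one_mul, one_mul, ← map_commutatorElement,
      commutatorElement_eq_one_iff_mul_comm.2
        (congrArg Subtype.val (h3.1.1 (⟨c, hc⟩ : H) ⟨d, hd⟩)), map_one]
  have hβ : deg β = 1 := (der_le_cker c1).1 (((commutator_mono le_top le_top).trans hG).trans c2)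
  rw [deg_Ind (irr_chr b1) le_top, deg_mul (irr_chr c1) (irr_chr a1), hβ, one_mul, dd, ← a2, deg_Res, a2]
  congr 1
  have e : H20.inertia H ψ = H20.inertia ⊤ ψ ⊓ H := Subgroup.ext fun x =>
    ⟨fun h => ⟨⟨trivial, h.2⟩, h.1⟩, fun h => ⟨h.2, h.1.2⟩⟩
  have : (H20.inertia ⊤ ψ).Normal := Subgroup.Normal.of_commutator_le _ (hG.trans hP)
  rw [e, inf_relIndex_right, ← relIndex_sup_of_norm (B := H) (normalIn_top.norms le_top),
    top_le_iff.1 (h4.ge.trans (sup_le_sup_right hP H))]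

end H19.NG
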