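import Cfsg.Agent.H4.ND0

/-! S4780: reduction of `DA` to the faithful case. -/

set_option autoImplicit false
set_option linter.unusedVariables false

open Subgroup MulAction H19 H20 H6 Cfsg H3.PT H3.GR H3.ND Module H24.ND
open scoped commutatorElement

namespace H19.NR

universe u

theorem da (daf : H4.ND.DAF.{u}) : DA.{u} := by
  intro G _ _ B hB V _ _ _ _ ab cy ne nc fp _ irr sr st
  obtain ⟨g, hg⟩ := cy
  obtain ⟨v0, hv0⟩ := exists_ne (0 : V)
  let K : Subgroup G := (MulAction.toPermHom G V).ker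
  have mK : ∀ {x}, x ∈ K ↔ ∀ v : V, x • v = v := fun {x} =>
    ⟨fun h v => DFunLike.congr_fun (MonoidHom.mem_ker.1 h) v, fun h => Equiv.ext h⟩
  have nK : K.Normal := MonoidHom.normal_ker _
  have KZ' : ∀ x ∈ B, x ∈ K → x ∈ center G := fun x hx hk =>
    by_contra fun n => hv0 (sr x hx n v0 (mK.1 hk v0))
  have cB : ∀ x, ∀ b ∈ B, x * b * x⁻¹ * b⁻¹ ∈ B := fun x b hb =>
    mul_mem (hB.conj_mem b hb x) (inv_mem hb)
  have cen : ∀ x, (∀ b ∈ B, x * b * x⁻¹ * b⁻¹ ∈ K) → x ∈ B := fun x h => by_contra fun n =>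
    nc fun b hb => fp x n b hb (KZ' _ (cB x b hb) (h b hb))
  have KB : K ≤ B := fun x hx => cen x fun b hb => by
    rw [mul_assoc, mul_assoc, ← mul_assoc b]
    exact mul_mem hx (by simpa only [mul_assoc] using nK.conj_mem _ (inv_mem hx) b)
  have KZ : K ≤ center G := fun x hx => KZ' x (KB hx) hx
  have gB : g ∉ B := fun e => ne (by rw [← hg, sup_eq_left.2 (zpowers_le.2 e)])
  let _ := quoAct K (W := V) fun w x hx => mK.1 hx w
  have sm : ∀ (x : G) (v : V), QuotientGroup.mk' K x • v = x • v := fun _ _ => rfl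
  have sj := QuotientGroup.mk'_surjective K
  have kk := (QuotientGroup.ker_mk' K).le
  have mB : ∀ x, QuotientGroup.mk' K x ∈ B.map (QuotientGroup.mk' K) ↔ x ∈ B := fun x => by
    rw [← mem_comap, comap_map_eq_self (kk.trans KB)]
  have mZ : ∀ x, QuotientGroup.mk' K x ∈ center (G ⧸ K) ↔ x ∈ center G := fun x => by
    refine ⟨fun h => ?_, fun h => mem_center_iff.2 fun y => ?_⟩
    · have k : ∀ y, y * x * y⁻¹ * x⁻¹ ∈ K := fun y => kk (by
        rw [MonoidHom.mem_ker, map_mul, map_mul, map_mul, mem_center_iff.1 h]; simp)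
      have xB : x ∈ B := cen x fun b hb => by simpa [mul_assoc] using inv_mem (k b)
      exact fp g gB x xB (KZ (k g))
    · obtain ⟨y, rfl⟩ := sj y
      rw [← map_mul, ← map_mul, mem_center_iff.1 h]
  have sb : ∀ v : V, stabilizer (G ⧸ K) v = (stabilizer G v).map (QuotientGroup.mk' K) := fun v => by
    ext x
    obtain ⟨x, rfl⟩ := sj x
    rw [iff_comm, ← mem_comap, comap_map_eq_self (kk.trans fun y hy => mK.1 hy v)]
    rfl
  have ix : ∀ v : V, (stabilizer (G ⧸ K) v).index = (stabilizer G v).index := fun v => by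
    rw [sb, index_map_eq _ sj (kk.trans fun y hy => mK.1 hy v)]
  have iB := index_map_eq B sj (kk.trans KB)
  have := hB.map _ sj
  rw [← iB]
  refine daf V inferInstance ⟨QuotientGroup.mk' K g, ?_⟩ (fun e => gB ((mB g).1 (e.ge trivial)))
    (fun e => nc fun b hb => (mZ b).1 (e ((mB b).2 hb))) (fun x hx w hw e => ?_)
    (fun U hU => irr U fun x => hU (QuotientGroup.mk' K x)) (fun x hx x1 v e => ?_) fun v h0 => ?_
  · rw [← MonoidHom.map_zpowers, ← Subgroup.map_sup, hg, map_top_of_surjective _ sj]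
  · obtain ⟨x, rfl⟩ := sj x
    obtain ⟨w, rfl⟩ := sj w
    rw [← map_inv, ← map_inv, ← map_mul, ← map_mul, ← map_mul, mZ] at e
    exact (mZ w).2 (fp x (mt (mB x).2 hx) w ((mB w).1 hw) e)
  · obtain ⟨x, rfl⟩ := sj x
    by_cases hz : x ∈ center G
    · rcases irr (BS.Fx V x) fun y w hw => BS.mem_Fx.2 (by
        rw [← mul_smul, ← mem_center_iff.1 hz, mul_smul, BS.mem_Fx.1 hw]) with q | q
      · exact AddSubgroup.mem_bot.1 (q ▸ BS.mem_Fx.2 e)
      · exact absurd ((QuotientGroup.eq_one_iff x).2 (mK.2 fun w => BS.mem_Fx.1 (q.ge trivial))) x1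
    · exact sr x ((mB x).1 hx) hz v e
  · obtain ⟨a, b, c⟩ := st v h0
    refine ⟨by rw [sb]; infer_instance, by rwa [iB, ix], fun w hw => ?_⟩
    rw [ix, ix]
    exact c w hw

end H19.NR
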