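/-
The configuration of four hyperplanes of a torus 5^4 in the orthogonal group of plus type in dimension eight over the field of four elements.
-/
import Cfsg.Agent.H14.O80
import Cfsg.Agent.H11.OmegaBridge

set_option autoImplicit false
set_option linter.unusedSectionVars false
set_option linter.unusedVariables false

namespace H19.O8
open Subgroup H12 QuadraticMap QuadraticAlgebra
universe u v

/-- the cyclic group of order five -/
abbrev Z5 := Multiplicative (ZMod 5)
/-- the torus -/
abbrev T := Fin 4 → Z5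
/-- the four reflections -/
def pf (i : Fin 4) (a : T) : T :=
  ![![a 1, a 0, a 2, a 3], ![a 0, a 2, a 1, a 3], ![a 0, a 1, a 3, a 2], ![a 0, a 1, (a 3)⁻¹, (a 2)⁻¹]] i
/-- their fixed points -/
def β (i : Fin 4) : Subgroup T where
  carrier := {a | pf i a = a}
  one_mem' := by revert i; decide
  mul_mem' {a b} ha hb := by
    have h : pf i (a * b) = pf i a * pf i b := by
      funext k; fin_cases i <;> fin_cases k <;> simp [pf, mul_comm]
    exact h.trans (congrArg₂ _ ha hb)
  inv_mem' {a} ha := by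
    have h : pf i a⁻¹ = (pf i a)⁻¹ := by
      funext k; fin_cases i <;> fin_cases k <;> simp [pf]
    exact h.trans (congrArg _ ha)

theorem card_β (i : Fin 4) : Nat.card (β i) = 125 := by
  have : Nat.card (β i) = Fintype.card {a : T // pf i a = a} := Nat.card_eq_fintype_card (α := {a : T // pf i a = a})
  rw [this]; clear this; revert i; decide +kernel

/-- a regular element -/
def a0 : T := ![1, .ofAdd 1, .ofAdd 2, 1]

theorem f1 : ∀ i, pf i a0 ≠ a0 := by decide
theorem f2 : ∀ i j, i ≠ j → pf i (pf j a0) ≠ a0 := by decide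
theorem f3 (i j : Fin 4) (h : i ≠ j) (a : T) : (fun a => pf i (pf j a))^[H14.O8.m i j] a = a := by
  fin_cases i <;> fin_cases j <;> first | exact absurd rfl h | (funext k; fin_cases k <;> simp [pf, H14.O8.m])
theorem card_T : Nat.card T = 625 := by simp

theorem mkD {H : Type v} [Group H] (δ : T →* H) (inj : Function.Injective δ) (x n : Fin 4 → H) (x3 : ∀ i, orderOf (x i) = 3)
    (xc : ∀ i a, pf i a = a → x i * δ a = δ a * x i) (act : ∀ i a, n i * δ a = δ (pf i a) * n i)
    (gen : closure {g | ∃ i, ∀ a, pf i a = a → g * δ a = δ a * g} = ⊤) : Nonempty (H14.O8.OmD H) := by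
  have cB : ∀ i g, (∀ a, pf i a = a → g * δ a = δ a * g) → g ∈ centralizer ((β i).map δ : Set H) := by
    rintro i g h _ ⟨a, ha, rfl⟩; exact (h a ha).symm
  have cA : ∀ (g : H) (f : T → T), (∀ a, g * δ a = δ (f a) * g) → (g ∈ centralizer (δ.range : Set H) ↔ ∀ a, f a = a) :=
    fun g f h => ⟨fun k a => inj (mul_right_cancel ((h a).symm.trans (k _ ⟨a, rfl⟩).symm)), by
      rintro k _ ⟨a, rfl⟩; rw [h, k]⟩
  have a2 : ∀ i j a, n i * n j * δ a = δ (pf i (pf j a)) * (n i * n j) := fun i j a => by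
    rw [mul_assoc, act, ← mul_assoc, act, mul_assoc]
  have ap : ∀ (g : H) (f : T → T), (∀ a, g * δ a = δ (f a) * g) → ∀ k a, g ^ k * δ a = δ (f^[k] a) * g ^ k := by
    intro g f h k
    induction k with
    | zero => simp
    | succ k ih => intro a; rw [pow_succ, mul_assoc, h, ← mul_assoc, ih, mul_assoc]; rfl
  have : Finite δ.range := Finite.of_surjective _ δ.rangeRestrict_surjective
  refine ⟨⟨δ.range, fun i => (β i).map δ, x, n, ?_, ?_, fun i => map_le_range _ _, fun i => ?_, x3, fun i => cB i _ (xc i),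
    fun i => ?_, fun i => cB i _ fun a ha => by rw [act, ha], fun i => ?_, fun i j hij => ?_, fun i j hij => ?_, ?_⟩⟩
  · rw [← Nat.card_congr (MonoidHom.ofInjective inj).toEquiv, card_T]
  · rintro _ ⟨a, rfl⟩ _ ⟨b, rfl⟩; rw [← map_mul, mul_comm, map_mul]
  · rw [card_map_of_injective inj, card_β]
  · refine mem_normalizer_fintype ?_
    rintro _ ⟨a, rfl⟩; exact ⟨pf i a, by rw [act]; group⟩
  · exact fun h => f1 i ((cA _ _ (act i)).1 h a0)
  · exact fun h => f2 i j hij ((cA _ _ (a2 i j)).1 h a0)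
  · exact (cA _ _ (ap _ (fun a => pf i (pf j a)) (a2 i j) _)).2 (f3 i j hij)
  · rw [eq_top_iff, ← gen, closure_le]
    rintro g ⟨i, h⟩; exact mem_iSup_of_mem i (cB i g h)

theorem gen_abs {O : Type v} [Group O] (N : Subgroup O) [N.Normal] (X : Subgroup N) (t : O) (ht : t ∉ N) (tt : t * t = 1)
    (hX : ∀ h ∈ X, MulAut.conjNormal t h ∈ X) (top : X.map N.subtype ⊔ zpowers t = ⊤) : X = ⊤ := by
  have ti : t⁻¹ = t := inv_eq_of_mul_eq_one_right tt
  have key : ∀ g ∈ closure ((X.map N.subtype : Set O) ∪ {t}), ∃ h ∈ X, g = h ∨ g = h * t := by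
    intro g hg
    induction hg using closure_induction'' with
    | one => exact ⟨1, one_mem _, .inl rfl⟩
    | mem g hg =>
      rcases hg with ⟨h, hh, rfl⟩ | rfl
      exacts [⟨h, hh, .inl rfl⟩, ⟨1, one_mem _, .inr (by simp)⟩]
    | inv_mem g hg =>
      rcases hg with ⟨h, hh, rfl⟩ | rfl
      exacts [⟨h⁻¹, inv_mem hh, .inl rfl⟩, ⟨1, one_mem _, .inr (by simp [ti])⟩]
    | mul g g' _ _ ih ih' =>
      obtain ⟨h, hh, e⟩ := ih
      obtain ⟨h', hh', e'⟩ := ih'
      rcases e with rfl | rfl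
      · exact ⟨h * h', mul_mem hh hh', e'.imp (fun e => by simp [e]) fun e => by simp [e, mul_assoc]⟩
      · refine ⟨h * MulAut.conjNormal t h', mul_mem hh (hX _ hh'), e'.symm.imp (fun e => ?_) fun e => ?_⟩
        · simp [e, ti, mul_assoc]
        · simp [e, mul_assoc]
  refine eq_top_iff.2 fun g _ => ?_
  obtain ⟨h, hh, e | e⟩ := key g (by rw [Subgroup.closure_union, closure_eq, ← zpowers_eq_closure, top]; trivial)
  · rwa [Subtype.ext e]
  · exact absurd ((N.mul_mem_cancel_left h.2).1 (e ▸ g.2)) ht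

theorem comb {F : Type u} [Field F] (h2 : (2 : F) = 0) {o : F} (o0 : o ≠ 0) (o1 : o ≠ 1) (P : F → F → F → F → Prop)
    (b : ∀ d, d ≠ 0 → P 0 0 0 d)
    (s0 : ∀ a b a' b' c d, a + b = a' + b' → a + b ≠ 0 → P a' b' c d → P a b c d)
    (s1 : ∀ a b c b' c' d, b + c = b' + c' → b + c ≠ 0 → P a b' c' d → P a b c d)
    (s2 : ∀ a b c d c' d', c + d = c' + d' → c + d ≠ 0 → P a b c' d' → P a b c d) (a b' c d : F) (h : a + b' + c + d ≠ 0) :
    P a b' c d := by
  have L2 : ∀ c d, c + d ≠ 0 → P 0 0 c d := fun c d h => s2 _ _ _ _ 0 (c + d) (by ring) h (b _ h)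
  have L1' : ∀ b d, b + d ≠ 0 → P 0 b 0 d := fun b d h => by
    by_cases hb : b = 0
    · subst hb; exact L2 _ _ h
    · exact s1 _ _ _ 0 b _ (by ring) (by simpa using hb) (L2 _ _ h)
  have L1 : ∀ b c d, b + c + d ≠ 0 → (b + c ≠ 0 ∨ c + d ≠ 0) → P 0 b c d := fun b c d h k => by
    rcases k with k | k
    · exact s1 _ _ _ 0 (b + c) _ (by ring) k (L2 _ _ h)
    · exact s2 _ _ _ _ 0 (c + d) (by ring) k (L1' _ _ (by rwa [← add_assoc]))
  have L : ∀ b c d, b + c + d ≠ 0 → P 0 b c d := fun b c d h => by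
    by_cases k : b + c ≠ 0 ∨ c + d ≠ 0
    · exact L1 _ _ _ h k
    push Not at k
    obtain rfl : b = d := by linear_combination k.1 - k.2
    obtain rfl : b = c := by linear_combination k.1 - c * h2
    have hb : b ≠ 0 := by rintro rfl; simp at h
    have hm : o * b ≠ 0 := mul_ne_zero o0 hb
    refine s0 _ _ b 0 _ _ (by ring) (by simpa using hb) (s1 _ _ _ (b - o * b) (o * b) _ (by ring) (by simpa using hb)
      (s0 _ _ 0 (o * b) _ _ (by linear_combination (b - o * b) * h2) (fun e => hm (by linear_combination b * h2 - e))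
        (L1 _ _ _ (fun e => hb (by linear_combination e - o * b * h2)) (.inr fun e => ?_))))
    exact o1 (mul_right_cancel₀ hb (by linear_combination e - b * h2))
  by_cases k : a + b' = 0
  · obtain rfl : a = b' := by linear_combination k - b' * h2
    by_cases ha : a = 0
    · subst ha; exact L _ _ _ (by simpa using h)
    have hc : c + d ≠ 0 := fun e => h (by linear_combination k + e)
    exact s2 _ _ _ _ 0 (c + d) (by ring) hc (s1 _ _ _ 0 a _ (by ring) (by simpa using ha)
      (s0 _ _ 0 a _ _ (by ring) (by simpa using ha) (L _ _ _ (by rwa [k, zero_add]))))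
  · exact s0 _ _ 0 (a + b') _ _ (by ring) k (L _ _ _ h)

section
variable {F : Type u} [Field F] (o : F)
/-- the field of four elements and a generator -/
class Hy : Prop where
  two : (2 : F) = 0
  sq : o ^ 2 + o + 1 = 0
  four : ∀ c : F, c ^ 4 = c
/-- the quadratic extension -/
abbrev E := QuadraticAlgebra F o 1
/-- the unitary space -/
abbrev W := Fin 4 → E o
/-- coordinates -/
def φ : W o ≃ₗ[F] (Fin 4 ⊕ Fin 4 → F) where
  toFun v := Sum.elim ![(v 0).re + (v 1).re, (v 0).im + (v 1).im, (v 2).re + (v 3).re, (v 2).im + (v 3).im]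
    ![(v 0).re + (v 1).re + (v 1).im, o * ((v 0).im + (v 1).im) + (v 0).re, (v 2).re + (v 3).re + (v 3).im,
      o * ((v 2).im + (v 3).im) + (v 2).re]
  invFun u := ![⟨u (.inr 1) - o * u (.inl 1), u (.inl 1) - u (.inr 0) + u (.inl 0)⟩,
    ⟨u (.inl 0) - u (.inr 1) + o * u (.inl 1), u (.inr 0) - u (.inl 0)⟩,
    ⟨u (.inr 3) - o * u (.inl 3), u (.inl 3) - u (.inr 2) + u (.inl 2)⟩,
    ⟨u (.inl 2) - u (.inr 3) + o * u (.inl 3), u (.inr 2) - u (.inl 2)⟩]
  map_add' v w := by ext (k | k) <;> fin_cases k <;> simp <;> ring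
  map_smul' c v := by ext (k | k) <;> fin_cases k <;> simp <;> ring
  left_inv v := by funext k; fin_cases k <;> ext <;> simp <;> ring
  right_inv u := by ext (k | k) <;> fin_cases k <;> simp
/-- the quadratic form -/
def Q : QuadraticForm F (W o) := (H11.qPlus 4 F).comp (φ o).toLinearMap

theorem isom : (CForm.ofQuad (Q o)).IsIsomTo (CForm.ofQuad (H11.qPlus 4 F)) (φ o) :=
  ⟨fun x y => by simp [polar, Q], fun x => rfl⟩
theorem nd : QNondeg (Q o) := fun x hx => (φ o).injective ((H11.qPlus_nondeg 4 (φ o x) fun y => by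
  obtain ⟨y, rfl⟩ := (φ o).surjective y; rw [(isom o).1]; exact hx y).trans (map_zero _).symm)

variable [Finite F] [hy : Hy o]
include hy
theorem o0 : o ≠ 0 := fun h => by simpa [h] using hy.sq
theorem o1 : o ≠ 1 := fun h => by
  have := hy.sq; rw [h] at this; exact one_ne_zero (α := F) (by linear_combination this - hy.two)
theorem o3 : o ^ 3 = 1 := by linear_combination (o - 1) * hy.sq
instance : Fact (∀ r : F, r ^ 2 ≠ o + 1 * r) := ⟨fun r h => one_ne_zero (α := F) (by
  linear_combination hy.sq + hy.four r - (r ^ 2 + o + r + 1) * h - (o * r + o ^ 2 + o) * hy.two)⟩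
theorem ne : NotExc F (W o) := .inl ⟨o, o0 o, o1 o⟩
theorem two : (2 : E o) = 0 := by rw [← map_ofNat (algebraMap F (E o)), hy.two, map_zero]
theorem Q_eq (v : W o) : Q o v = (v 0).norm + (v 1).norm + (v 2).norm + (v 3).norm := by
  simp [Q, φ, Cfsg.quadFormPlus, Fin.sum_univ_four, norm_def]
  linear_combination ((v 0).re * (v 1).re + o * (v 0).im * (v 1).im + o * (v 0).im ^ 2 + o * (v 1).im ^ 2 + (v 0).re * (v 1).im +
    (v 2).re * (v 3).re + o * (v 2).im * (v 3).im + o * (v 2).im ^ 2 + o * (v 3).im ^ 2 + (v 2).re * (v 3).im) * hy.two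
theorem idx : (commutator (orth (Q o))).index = 2 :=
  index_commutator_even (nd o) (ne o) hy.two (by rw [(φ o).finrank_eq]; simp)

variable {o}
/-- an isometry -/
noncomputable def iso (f : W o →ₗ[F] W o) (h : ∀ v, Q o (f v) = Q o v) : orth (Q o) :=
  ⟨LinearEquiv.ofInjectiveEndo f ((injective_iff_map_eq_zero f).2 fun x hx => nd o x fun y => by
    have : polar (Q o) (f x) (f y) = polar (Q o) x y := by simp only [polar, ← map_add, h]
    simpa [hx] using this.symm), mem_orth.2 h⟩
theorem nrm {x y : E o} (h : x.norm + y.norm = 1) (a b : E o) :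
    (x * a + star y * b).norm + (y * a + star x * b).norm = a.norm + b.norm := by
  apply (algebraMap F (E o)).injective
  have := congrArg (algebraMap F (E o)) h
  simp only [map_add, algebraMap_norm_eq_mul_star, star_add, star_mul, star_star, map_one] at this ⊢
  linear_combination (a * star a + b * star b) * this + (x * y * a * star b + star x * star y * star a * b) * two o
/-- unitary matrices on two adjacent coordinates -/
def mv (k : Fin 3) (x y : E o) : W o →ₗ[F] W o where
  toFun v := ![![x * v 0 + star y * v 1, y * v 0 + star x * v 1, v 2, v 3],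
    ![v 0, x * v 1 + star y * v 2, y * v 1 + star x * v 2, v 3], ![v 0, v 1, x * v 2 + star y * v 3, y * v 2 + star x * v 3]] k
  map_add' v w := by funext l; fin_cases k <;> fin_cases l <;> simp <;> ring
  map_smul' c v := by funext l; fin_cases k <;> fin_cases l <;> simp
/-- as isometries -/
noncomputable def mm (k : Fin 3) {x y : E o} (h : x.norm + y.norm = 1) : orth (Q o) := iso (mv k x y) fun v => by
  rw [Q_eq, Q_eq]
  fin_cases k <;> simp [mv]
  · exact nrm h _ _
  · linear_combination nrm h (v 1) (v 2)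
  · linear_combination nrm h (v 2) (v 3)
theorem mm_ap (k : Fin 3) {x y : E o} (h : x.norm + y.norm = 1) (v : W o) : (mm k h).1 v = mv k x y v := rfl
theorem mm_mul (k : Fin 3) {x y x' y' x'' y'' : E o} (h : x.norm + y.norm = 1) (h' : x'.norm + y'.norm = 1)
    (h'' : x''.norm + y''.norm = 1) (e1 : x'' = x * x' + star y * y') (e2 : y'' = y * x' + star x * y') :
    mm k h * mm k h' = mm k h'' := orth_ext fun v => by
  subst e1 e2
  rw [orth_mul_apply, mm_ap, mm_ap, mm_ap]
  funext l; fin_cases k <;> fin_cases l <;> simp [mv] <;> ring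
theorem mm_one (k : Fin 3) (h : (1 : E o).norm + (0 : E o).norm = 1) : mm k h = 1 := orth_ext fun v => by
  rw [mm_ap, orth_one_apply]; funext l; fin_cases k <;> fin_cases l <;> simp [mv]
theorem mem1 (k : Fin 3) {x y : E o} (h : x.norm + y.norm = 1) (hx : x.im ≠ 0) : mm k h ∈ commutator (orth (Q o)) := by
  have c3 : x.im ^ 3 = 1 := mul_right_cancel₀ hx (by linear_combination hy.four x.im)
  have h' : (x.im • (x + 1)).norm + (x.im • y).norm = 1 := by
    simp only [norm_def] at h ⊢; simp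
    linear_combination x.im ^ 2 * h + c3 + (x.im ^ 2 * x.re + x.im ^ 2) * hy.two
  rw [← mm_mul k h' h' h]
  · exact mul_self_mem_of_index_two (idx o) _
  · simp only [norm_def] at h
    ext <;> simp
    · linear_combination (-x.im ^ 2) * h - x.re * c3 - (x.im ^ 2 + o * x.im ^ 4) * hy.two + x.im ^ 2 * x.re * (x.im - 1) * hy.two
    · linear_combination (-x.im) * c3 - (x.im ^ 3 * x.re + x.im ^ 3) * hy.two
  · ext <;> simp
    · linear_combination (-y.re) * c3 - (x.im ^ 2 * y.re * (x.re + 1)) * hy.two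
    · linear_combination (-y.im) * c3 - (x.im ^ 2 * y.im * (x.re + 1)) * hy.two
theorem hζ : (⟨0, o⟩ : E o).norm = 1 := by
  simp [norm_def]; linear_combination (-1 : F) * o3 o - hy.two
theorem mem (k : Fin 3) {x y : E o} (h : x.norm + y.norm = 1) : mm k h ∈ commutator (orth (Q o)) := by
  have key : ∀ {x' y' : E o} (h' : x'.norm + y'.norm = 1), x'.im ≠ 0 → (x * x' + star y * y').im ≠ 0 →
      mm k h ∈ commutator (orth (Q o)) := fun {x' y'} h' a b => by
    have := mem1 k ((nrm h x' y').trans h') b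
    rwa [← mm_mul k h h' _ rfl rfl, mul_mem_cancel_right (mem1 k h' a)] at this
  by_cases hx : x.im = 0
  · by_cases h0 : x.re = 0
    · have hn : y.norm = 1 := by simpa [norm_def x, hx, h0] using h
      refine key (x' := ⟨0, 1⟩) (y' := y * ⟨0, o ^ 2⟩) ?_ one_ne_zero ?_
      · rw [map_mul, hn]; simp [norm_def]; linear_combination (-o ^ 2) * o3 o - hy.sq
      · rw [← mul_assoc, mul_comm (star y), ← algebraMap_norm_eq_mul_star, hn]; simp [hx, h0, o0 o]
    · exact key (x' := ⟨0, o⟩) (y' := 0) (by simp [hζ]) (o0 o) (by simp [hx, h0, o0 o])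
  · exact mem1 k h hx

/-- diagonal matrices -/
noncomputable def dg : (Fin 4 → unitary (E o)) →* orth (Q o) where
  toFun a := iso ⟨⟨fun v k => a k * v k, fun v w => by funext k; simp [mul_add]⟩, fun c v => by funext k; simp⟩ fun v => by
    simp [Q_eq, norm_eq_one (a _).2]
  map_one' := orth_ext fun v => funext fun k => one_mul _
  map_mul' a b := orth_ext fun v => funext fun k => mul_assoc _ _ _
theorem dg_ap (a : Fin 4 → unitary (E o)) (v : W o) : (dg a).1 v = fun k => (a k : E o) * v k := rfl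
variable (o) in
/-- a reflection -/
def t : orth (Q o) := refl (Q o) (Pi.single 3 1)
theorem Qe : Q o (Pi.single 3 1) = 1 := by simp [Q_eq]
theorem t_ap (v : W o) : (t o).1 v = ![v 0, v 1, v 2, star (v 3)] := by
  rw [t, refl_apply, Qe, polar, Qe, Q_eq, Q_eq]
  funext l; fin_cases l <;> simp
  ext <;> simp [norm_def]
  · linear_combination (-(v 3).re - (v 3).im) * hy.two
  · linear_combination (v 3).im * hy.two
theorem t_not : t o ∉ commutator (orth (Q o)) := by
  rw [commutator_eq_ker_dickson (nd o) (ne o) hy.two, MonoidHom.mem_ker, t, dickson_refl (nd o) (ne o) (by simp [Qe])]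
  decide
theorem ex_ι : ∃ ι : Z5 →* unitary (E o), Function.Injective ι := by
  let ζ : unitary (E o) := ⟨⟨0, o⟩, mem_unitary hζ⟩
  have : Fact (Nat.Prime 5) := ⟨by norm_num⟩
  have h : orderOf ζ = 5 := orderOf_eq_prime (Subtype.ext (by
    have := o3 o; have := hy.sq; have := hy.two
    ext <;> simp [ζ, pow_succ] <;> grind)) fun h => o0 o (by simpa [ζ] using congrArg (fun u => u.1.im) h)
  exact ⟨(zpowers ζ).subtype.comp (mulEquivOfPrimeCardEq (p := 5) (by simp) (by rw [Nat.card_zpowers, h])).toMonoidHom,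
    (subtype_injective _).comp (MulEquiv.injective _)⟩
/-- the auxiliary vectors -/
def up (k : Fin 3) (v : W o) (z : E o) : W o := ![![z, 0, v 2, v 3], ![v 0, z, 0, v 3], ![v 0, v 1, z, 0]] k
theorem nsq (n : F) : (algebraMap F (E o) (n ^ 2)).norm = n := by
  rw [QuadraticAlgebra.norm_algebraMap, ← pow_mul, hy.four]
theorem top (Y : Subgroup (orth (Q o))) (ht : t o ∈ Y) (hm : ∀ k (x y : E o) (h : x.norm + y.norm = 1), mm k h ∈ Y) : Y = ⊤ := by
  have stp : ∀ (k : Fin 3) (v : W o) (n : F), (v k.castSucc).norm + (v k.succ).norm = n → n ≠ 0 →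
      (refl (Q o) v ∈ Y ↔ refl (Q o) (up k v (algebraMap F _ (n ^ 2))) ∈ Y) := by
    intro k v n hn n0
    have e := nsq (o := o) n
    generalize algebraMap F (E o) (n ^ 2) = z at e
    have z0 : z ≠ 0 := by rintro rfl; exact n0 (by simpa using e.symm)
    have h : (v k.castSucc / z).norm + (v k.succ / z).norm = 1 := mul_right_cancel₀ n0 (by
      rw [one_mul, add_mul, ← e, ← map_mul, ← map_mul, div_mul_cancel₀ _ z0, div_mul_cancel₀ _ z0, hn, e])
    have : (mm k h).1 (up k v z) = v := by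
      rw [mm_ap]; funext l; fin_cases k <;> fin_cases l <;> simp [mv, up, z0]
    conv_lhs => rw [← this, ← refl_conj]
    rw [mul_mem_cancel_right (inv_mem (hm k _ _ h)), mul_mem_cancel_left (hm k _ _ h)]
  rw [eq_top_iff, ← closure_reflSet (nd o) (ne o), closure_le]
  rintro _ ⟨v, hv, rfl⟩
  refine comb hy.two (o0 o) (o1 o) (fun a b c d => ∀ v : W o, (v 0).norm = a → (v 1).norm = b → (v 2).norm = c → (v 3).norm = d →
    refl (Q o) v ∈ Y) (fun d hd v h0 h1 h2 h3 => ?_) (fun a b a' b' c d e n0 H v h0 h1 h2 h3 => ?_)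
    (fun a b c b' c' d e n0 H v h0 h1 h2 h3 => ?_) (fun a b c d c' d' e n0 H v h0 h1 h2 h3 => ?_) _ _ _ _ (Q_eq o v ▸ hv) v
    rfl rfl rfl rfl
  · have k : refl (Q o) ((d ^ 2) • (Pi.single 3 1 : W o)) ∈ Y := by rwa [refl_smul (pow_ne_zero 2 hd)]
    rw [stp 2 _ d (by simp [← Algebra.algebraMap_eq_smul_one, ← pow_mul, hy.four, -map_pow]) hd] at k
    rw [stp 2 v d (by simp [h2, h3]) hd]
    rw [norm_eq_zero_iff_eq_zero] at h0 h1
    simpa [up, h0, h1] using k
  · exact (stp 0 v _ (by simp [h0, h1]) n0).2 ((stp 0 ![algebraMap F _ (a' ^ 2), algebraMap F _ (b' ^ 2), v 2, v 3] _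
      ((congrArg₂ _ (nsq _) (nsq _)).trans e.symm) n0).1 (H _ (nsq _) (nsq _) h2 h3))
  · exact (stp 1 v _ (by simp [h1, h2]) n0).2 ((stp 1 ![v 0, algebraMap F _ (b' ^ 2), algebraMap F _ (c' ^ 2), v 3] _
      ((congrArg₂ _ (nsq _) (nsq _)).trans e.symm) n0).1 (H _ h0 (nsq _) (nsq _) h3))
  · exact (stp 2 v _ (by simp [h2, h3]) n0).2 ((stp 2 ![v 0, v 1, algebraMap F _ (c' ^ 2), algebraMap F _ (d' ^ 2)] _
      ((congrArg₂ _ (nsq _) (nsq _)).trans e.symm) n0).1 (H _ h0 h1 (nsq _) (nsq _)))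

/-- the action of the reflection on the torus -/
def τ (a : T) : T := ![a 0, a 1, a 2, (a 3)⁻¹]
omit hy in
theorem ττ (a : T) : τ (τ a) = a := by funext k; fin_cases k <;> simp [τ]
omit hy in
theorem τp (i : Fin 4) (a : T) : pf i (τ a) = τ (pf (Equiv.swap 2 3 i) a) := by
  funext k; fin_cases i <;> fin_cases k <;> simp [τ, pf, Equiv.swap_apply_def]
omit hy in
theorem pk (k : Fin 3) (a : T) (h : pf k.castSucc a = a) : a k.succ = a k.castSucc := by
  fin_cases k
  exacts [congrFun h 0, congrFun h 1, congrFun h 2]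

theorem hx : (⟨0, 1⟩ : E o).norm + (⟨o, 0⟩ : E o).norm = 1 := by
  have := hy.sq; have := hy.two; simp [norm_def]; grind
theorem ord3 (k : Fin 3) : orderOf (mm k (hx (o := o))) = 3 := by
  have hs := hy.sq
  have h2 := hy.two
  have hx' : (⟨1, 1⟩ : E o).norm + (⟨o, 0⟩ : E o).norm = 1 := by simp [norm_def]; grind
  have : Fact (Nat.Prime 3) := ⟨Nat.prime_three⟩
  refine orderOf_eq_prime ?_ fun h => ?_
  · rw [pow_three', mm_mul k hx hx hx' (by ext <;> simp; grind) (by ext <;> simp), mm_mul k hx' hx (x'' := 1) (y'' := 0) (by simp)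
      (by ext <;> simp <;> grind) (by ext <;> simp <;> grind), mm_one]
  · have := congrArg (fun g : orth (Q o) => (g.1 (Pi.single k.castSucc 1) k.castSucc).im) h
    simp only [mm_ap, orth_one_apply] at this
    fin_cases k <;> simp [mv] at this
theorem t_dg (a : Fin 4 → unitary (E o)) : t o * dg a * (t o)⁻¹ = dg ![a 0, a 1, a 2, (a 3)⁻¹] := by
  rw [mul_inv_eq_iff_eq_mul]
  refine orth_ext fun v => ?_
  rw [orth_mul_apply, orth_mul_apply, t_ap, t_ap, dg_ap, dg_ap]
  funext l; fin_cases l <;> simp [← Unitary.star_eq_inv]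
theorem mm_dg (k : Fin 3) {x y : E o} (h : x.norm + y.norm = 1) (a : Fin 4 → unitary (E o)) (ha : a k.succ = a k.castSucc) :
    mm k h * dg a = dg a * mm k h := orth_ext fun v => by
  rw [orth_mul_apply, orth_mul_apply, mm_ap, mm_ap, dg_ap, dg_ap]
  funext l; fin_cases k <;> fin_cases l <;> simp [mv] at ha ⊢ <;> rw [ha] <;> ring
theorem sw_dg (k : Fin 3) (h : (0 : E o).norm + (1 : E o).norm = 1) (a : Fin 4 → unitary (E o)) :
    mm k h * dg a = dg (![![a 1, a 0, a 2, a 3], ![a 0, a 2, a 1, a 3], ![a 0, a 1, a 3, a 2]] k) * mm k h := orth_ext fun v => by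
  rw [orth_mul_apply, orth_mul_apply, mm_ap, mm_ap, dg_ap, dg_ap]
  funext l; fin_cases k <;> fin_cases l <;> simp [mv]

theorem main {H : Type v} [Group H] (e : commutator (orth (Q o)) ≃* H) : Nonempty (H14.O8.OmD H) := by
  obtain ⟨ι, hι⟩ := ex_ι (o := o)
  let δ0 : T →* orth (Q o) := dg.comp (ι.compLeft (Fin 4))
  let δ : T →* commutator (orth (Q o)) := δ0.codRestrict _ fun a => by
    have : a = a ^ 3 * a ^ 3 := by
      funext k; have : ∀ z : Z5, z = z ^ 3 * z ^ 3 := by decide
      exact this _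
    rw [this, map_mul]; exact mul_self_mem_of_index_two (idx o) _
  have inj : Function.Injective δ := fun a b h => funext fun k => hι (Subtype.ext (by
    have : (ι (a k) : E o) * 1 = ι (b k) * 1 := congrArg (fun g : commutator (orth (Q o)) => g.1.1 (fun _ => 1) k) h
    simpa only [mul_one] using this))
  let M : ∀ (k : Fin 3) {x y : E o} (h : x.norm + y.norm = 1), commutator (orth (Q o)) := fun k _ _ h => ⟨mm k h, mem k h⟩
  let c : MulAut (commutator (orth (Q o))) := MulAut.conjNormal (t o)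
  have cδ : ∀ a, c (δ a) = δ (τ a) := fun a => Subtype.ext ((t_dg _).trans (congrArg dg (by
    funext l; fin_cases l <;> simp [τ])))
  have Mc : ∀ k {x y : E o} (h : x.norm + y.norm = 1) a, pf k.castSucc a = a → M k h * δ a = δ a * M k h := fun k x y h a ha =>
    Subtype.ext (mm_dg k h _ (congrArg ι (pk k a ha)))
  have cc : ∀ i g, (∀ a, pf i a = a → g * δ a = δ a * g) → ∀ a, pf (Equiv.swap 2 3 i) a = a → c g * δ a = δ a * c g :=
    fun i g h a ha => by
      have := congrArg c (h (τ a) (by rw [τp, ha]))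
      rwa [map_mul, map_mul, cδ, ττ] at this
  have h0 : (0 : E o).norm + (1 : E o).norm = 1 := by simp
  have Mn : ∀ k a, M k h0 * δ a = δ (pf k.castSucc a) * M k h0 := fun k a => Subtype.ext ((sw_dg k h0 _).trans
    (congrArg (fun b => dg b * _) (by funext l; fin_cases k <;> fin_cases l <;> rfl)))
  have o3 : ∀ k, orderOf (M k hx) = 3 := fun k => (orderOf_coe _).symm.trans (ord3 k)
  have gen : Subgroup.closure {g | ∃ i, ∀ a, pf i a = a → g * δ a = δ a * g} = ⊤ := by
    refine gen_abs _ _ (t o) t_not (refl_mul_self _) (fun h hh => ?_) (top _ (mem_sup_right (mem_zpowers _)) fun k x y h =>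
      mem_sup_left ⟨M k h, subset_closure ⟨_, Mc k h⟩, rfl⟩)
    refine mem_comap.1 ((closure_le (comap c.toMonoidHom _)).2 ?_ hh)
    rintro g ⟨i, hg⟩
    exact subset_closure ⟨_, cc i g hg⟩
  refine mkD (e.toMonoidHom.comp δ) (e.injective.comp inj) (fun i => e (![M 0 hx, M 1 hx, M 2 hx, c (M 2 hx)] i))
    (fun i => e (![M 0 h0, M 1 h0, M 2 h0, c (M 2 h0)] i)) (fun i => ?_) (fun i a ha => ?_) (fun i a => ?_) ?_
  · rw [MulEquiv.orderOf_eq]; fin_cases i
    exacts [o3 0, o3 1, o3 2, (c.orderOf_eq _).trans (o3 2)]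
  · change e _ * e _ = e _ * e _
    rw [← map_mul, ← map_mul]; congr 1; fin_cases i
    exacts [Mc 0 hx a ha, Mc 1 hx a ha, Mc 2 hx a ha, cc 2 _ (Mc 2 hx) a ha]
  · change e _ * e _ = e _ * e _
    rw [← map_mul, ← map_mul]; congr 1; fin_cases i
    · exact Mn 0 a
    · exact Mn 1 a
    · exact Mn 2 a
    · have := congrArg c (Mn 2 (τ a))
      rw [map_mul, map_mul, cδ, cδ, ττ] at this
      exact this.trans (congrArg (fun b => δ b * _) ((congrArg τ (τp 2 a)).trans (ττ _)))
  · rw [eq_top_iff, ← map_top_of_surjective e.toMonoidHom e.surjective, ← gen, MonoidHom.map_closure]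
    refine closure_mono ?_
    rintro _ ⟨g, ⟨i, hg⟩, rfl⟩
    exact ⟨i, fun a ha => by simpa using congrArg e (hg a ha)⟩

end

theorem om : H14.O8.OM.{u} := by
  intro F _ _ hF
  have four : ∀ c : F, c ^ 4 = c := fun c => hF ▸ FiniteField.pow_card c
  have two : (2 : F) = 0 := by
    have := FiniteField.cast_card_eq_zero F
    rw [hF] at this
    exact pow_eq_zero_iff two_ne_zero |>.1 (by linear_combination (norm := (push_cast; ring)) this)
  obtain ⟨o, o0, o1⟩ : ∃ o : F, o ≠ 0 ∧ o ≠ 1 := by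
    rcases notExc_of_card (F := F) (V := Fin 4 → F) (n := 4) (by simp) (.inl (by omega)) with h | h
    exacts [h, absurd (by simp) h]
  have : Hy o := ⟨two, mul_left_cancel₀ (mul_ne_zero o0 (sub_ne_zero.2 o1)) (by linear_combination four o), four⟩
  exact main ((H11.commutatorCongr (H11.isomCongr (φ o) (isom o))).trans (H11.omegaEquiv _ (H11.coe_qPlus 4)).symm)

end H19.O8
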