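/-
Rank three actions of unitary groups: the type of the invariant flag functions (chunk `FT`).
-/
import Cfsg.Agent.H0.RU1
import Cfsg.Agent.H22.RU1
import Cfsg.Agent.H19.RU1

set_option autoImplicit false
set_option linter.unusedSectionVars false
set_option linter.unusedVariables false

open Module MulAction H13.R3 H12 H0.RU
open H11 (hermT frob)
open H11.RS (PO)
namespace H19.RU

universe u

section
variable {q X w : ℤ}
theorem ar1 (hq : 3 ≤ q) (hX : q ^ 4 ≤ X ∨ X ≤ -q ^ 4) : Function.Injective ![X, q, -1] ∧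
    (∀ i j, q ^ 2 * ![X, q, -1] i ≠ ![X, q, -1] j) ∧ ∀ i j l, j ≠ l → (q ^ 2 + 1) * ![X, q, -1] i ≠ ![X, q, -1] j + ![X, q, -1] l ∧
      (q ^ 2 + 1) * ![X, q, -1] i ≠ q ^ 2 * (![X, q, -1] j + ![X, q, -1] l) := by
  have h1 : 3 * q ≤ q ^ 2 := by nlinarith
  have h2 : 3 * q ^ 2 ≤ q ^ 3 := by nlinarith
  have h3 : 3 * q ^ 3 ≤ q ^ 4 := by nlinarith
  have h4 : 9 * q ^ 4 ≤ q ^ 2 * X ∧ 9 * X ≤ q ^ 2 * X ∧ 0 < X ∨ q ^ 2 * X ≤ -9 * q ^ 4 ∧ q ^ 2 * X ≤ 9 * X ∧ X < 0 := by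
    rcases hX with h | h
    exacts [.inl ⟨by nlinarith, by nlinarith, by nlinarith⟩, .inr ⟨by nlinarith, by nlinarith, by nlinarith⟩]
  have e : q ^ 2 * q = q ^ 3 := by ring
  refine ⟨fun i j => ?_, fun i j => ?_, fun i j l => ?_⟩
  · fin_cases i <;> fin_cases j <;> simp <;> omega
  · fin_cases i <;> fin_cases j <;> simp [e] <;> omega
  · fin_cases i <;> fin_cases j <;> fin_cases l <;> simp [e, mul_add, add_mul] <;> omega
end

/-- the eigenvalues of `opA` -/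
noncomputable def av (q n : ℕ) : Fin 3 → ℂ := ![(q : ℂ) ^ (2 * n - 7), -(-q : ℂ) ^ (n - 4), -(-q : ℂ) ^ (n - 5)]

theorem ar2 {q n : ℕ} (hq : 3 ≤ q) (hn : 6 ≤ n) : Function.Injective (av q n) ∧
    (∀ i j, (((q : ℂ) ^ 2) ^ 2 + q ^ 2) * av q n i ≠ (q ^ 2 + 1) * av q n j) ∧ ∀ i j l, j ≠ l →
      (((q : ℂ) ^ 2) ^ 2 + q ^ 2) * av q n i ≠ q ^ 2 * (av q n j + av q n l) ∧
      (q ^ 2 + 1) * av q n i ≠ q ^ 2 * (av q n j + av q n l) := by
  obtain ⟨m, rfl⟩ : ∃ m, n = m + 6 := ⟨n - 6, by omega⟩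
  have q0 : (q : ℂ) ≠ 0 := Nat.cast_ne_zero.2 (by omega)
  have q1 : (q : ℂ) ^ 2 + 1 ≠ 0 := by exact_mod_cast Nat.succ_ne_zero (q ^ 2)
  have w0 : (-q : ℂ) ^ (m + 1) ≠ 0 := pow_ne_zero _ (neg_ne_zero.2 q0)
  obtain ⟨h1, h2, h3⟩ := ar1 (q := q) (X := q ^ 3 * (-q) ^ (m + 1)) (by exact_mod_cast hq) (by
    have : (q : ℤ) ^ 4 ≤ q ^ 3 * q ^ (m + 1) := by rw [← pow_add]; exact pow_le_pow_right₀ (by omega) (by omega)
    rcases neg_one_pow_eq_or ℤ (m + 1) with e | e <;> rw [neg_pow (q : ℤ), e]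
    exacts [.inl (by linarith), .inr (by linarith)])
  have e : ∀ i, av q (m + 6) i = (-q : ℂ) ^ (m + 1) * (![(q : ℤ) ^ 3 * (-q) ^ (m + 1), q, -1] i : ℤ) := fun i => by
    fin_cases i
    · simp [av, show 2 * (m + 6) - 7 = 2 * (m + 1) + 3 by omega, pow_add, pow_mul']
      ring_nf; simp [pow_mul']
    · simp [av, show m + 6 - 4 = m + 1 + 1 by omega, pow_succ]
    · simp [av]
  simp only [Function.Injective, e]
  generalize ![(q : ℤ) ^ 3 * (-q) ^ (m + 1), q, -1] = b at *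
  generalize (-q : ℂ) ^ (m + 1) = w at *
  refine ⟨fun i j r => h1 (Int.cast_injective (mul_left_cancel₀ w0 r)), fun i j r => h2 i j (Int.cast_injective (α := ℂ)
    (mul_left_cancel₀ (mul_ne_zero q1 w0) ?_)), fun i j l n => ⟨fun r => (h3 i j l n).1 (Int.cast_injective (α := ℂ)
    (mul_left_cancel₀ (mul_ne_zero (pow_ne_zero 2 q0) w0) ?_)), fun r => (h3 i j l n).2 (Int.cast_injective (α := ℂ)
    (mul_left_cancel₀ w0 ?_))⟩⟩ <;> push_cast <;> linear_combination r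

/-- the shape of the eigenvalues of the class sum -/
def Val (q n : ℕ) (b : Prop) (c : ℂ) : Prop := ∃ (j : ℕ) (k : ℤ), j + 2 ≤ n ∧ IsCoprime k q ∧
  (q ^ 2 + q ^ 4) * q ^ (2 * n - 7) - c = q ^ j * k ∧ (b → j + 2 = n → k ≠ aa q (n - 1))

theorem ar3 {q n : ℕ} (hq : 3 ≤ q) (hn : 6 ≤ n) : (∀ i, i ≠ 0 → Val q n True ((((q : ℂ) ^ 2) ^ 2 + q ^ 2) * av q n i) ∧
    Val q n True ((q ^ 2 + 1) * av q n i)) ∧ ∀ i j, i ≠ j → Val q n (i ≠ 0 ∧ j ≠ 0) (q ^ 2 * (av q n i + av q n j)) := by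
  obtain ⟨m, rfl⟩ : ∃ m, n = m + 6 := ⟨n - 6, by omega⟩
  have cop : ∀ s r : ℤ, s * s = 1 → IsCoprime (s + q * r) (q : ℤ) := fun s r h => ⟨s, -s * r, by linear_combination h⟩
  have e2 : (-1 : ℤ) ^ m * (-1) ^ m = 1 := by rw [← mul_pow]; simp
  have e3 : -(-1 : ℤ) ^ m * -(-1) ^ m = 1 := by rw [neg_mul_neg, e2]
  have a0 : av q (m + 6) 0 = q ^ 5 * (q ^ m) ^ 2 := by simp [av, show 2 * (m + 6) - 7 = 5 + m * 2 by omega, pow_add, pow_mul]
  have a1 : av q (m + 6) 1 = -(-1) ^ m * q ^ 2 * q ^ m := by simp [av, neg_pow (q : ℂ), show m + 6 - 4 = m + 2 by omega]; ring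
  have a2 : av q (m + 6) 2 = (-1) ^ m * q * q ^ m := by simp [av, neg_pow (q : ℂ)]; ring
  have t : ∀ {b : Prop} {c : ℂ} (j : ℕ) (s r : ℤ), j ≤ 4 → s * s = 1 → (b → j = 4 → s + q * r ≠ aa q (m + 5)) →
      (q ^ 2 + q ^ 4) * (q ^ 5 * (q ^ m) ^ 2) - c = q ^ j * q ^ m * (s + q * r) → Val q (m + 6) b c := fun j s r h1 h2 h3 h4 =>
    ⟨j + m, _, by omega, cop s r h2, by rw [← a0] at h4; rw [pow_add]; push_cast; exact h4, fun b e => h3 b (by omega)⟩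
  have v5 := fun b => t (b := b ∧ False) (c := q ^ 2 * (av q (m + 6) 0 + av q (m + 6) 1)) 4 _ (q ^ 4 * q ^ m) le_rfl e2 (by simp)
    (by rw [a0, a1]; push_cast; ring)
  have v6 := fun b => t (b := b) (c := q ^ 2 * (av q (m + 6) 0 + av q (m + 6) 2)) 3 _ (q ^ 5 * q ^ m) (by decide) e3 (by simp)
    (by rw [a0, a2]; push_cast; ring)
  have v7 := fun b => t (b := b) (c := q ^ 2 * (av q (m + 6) 1 + av q (m + 6) 2)) 3 _ (q ^ 5 * q ^ m + q ^ 3 * q ^ m + (-1) ^ m)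
    (by decide) e3 (by simp) (by rw [a1, a2]; push_cast; ring)
  refine ⟨fun i n => ?_, fun i j n => ?_⟩
  · fin_cases i
    · exact (n rfl).elim
    · refine ⟨t 4 _ (q * (-1) ^ m + (q ^ 2 + 1) * q ^ 2 * q ^ m) le_rfl e2 (fun _ _ e => ?_) (by simp [a1]; ring),
        t 2 _ (q * (-1) ^ m + (q ^ 2 + 1) * q ^ 4 * q ^ m) (by decide) e2 (by simp) (by simp [a1]; ring)⟩
      have : (0 : ℤ) < q ^ m := by positivity
      have : (3 : ℤ) ≤ q := by exact_mod_cast hq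
      have : (0 : ℤ) < q ^ 2 * ((-1) ^ m + q * q ^ m) := mul_pos (by positivity) (by
        rcases neg_one_pow_eq_or ℤ m with e | e <;> rw [e] <;> nlinarith)
      rw [aa, pow_add, pow_add] at e
      nlinarith
    · exact ⟨t 3 _ (-q * (-1) ^ m + (q ^ 2 + 1) * q ^ 3 * q ^ m) (by decide) e3 (by simp) (by simp [a2]; ring),
        t 1 _ (-q * (-1) ^ m + (q ^ 2 + 1) * q ^ 5 * q ^ m) (by decide) e3 (by simp) (by simp [a2]; ring)⟩
  · fin_cases i <;> fin_cases j <;> first | exact (n rfl).elim | skip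
    exacts [by simpa using v5 True, v6 _, by rw [add_comm (av q _ _)]; simpa using v5 True, v7 _, add_comm (av q _ 0) _ ▸ v6 _,
      add_comm (av q _ 1) _ ▸ v7 _]

variable {F : Type u} [Field F] [Fintype F] {q : ℕ} {hF : Fintype.card F = q ^ 2}
  {V : Type u} [AddCommGroup V] [Module F V] [Fintype V] {C : CForm (hermT hF) V}
  {G : Type u} [Group G] [Fintype G] [DistribMulAction G V] [SMulCommClass G F V] {H : Subgroup G}

theorem ts_conj (U : Un C G) (t : G) (h : t ∈ TS C G) (g : G) : g * t * g⁻¹ ∈ TS C G := by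
  classical
  obtain ⟨-, v, a, iv, a0, k⟩ := Finset.mem_filter.1 h
  refine Finset.mem_filter.2 ⟨Finset.mem_univ _, g • v, a, ⟨(smul_ne_zero_iff_ne g).2 iv.1, by rw [U.iso, iv.2]⟩, a0, fun w => ?_⟩
  rw [mul_smul, mul_smul, k, smul_add, smul_inv_smul, smul_comm g, ← U.iso g, smul_inv_smul]
theorem ts_inv (t : G) (h : t ∈ TS C G) : t⁻¹ ∈ TS C G := by
  classical
  obtain ⟨-, v, a, iv, a0, k⟩ := Finset.mem_filter.1 h
  refine Finset.mem_filter.2 ⟨Finset.mem_univ _, v, -a, iv, neg_ne_zero.2 a0, fun w => inv_smul_eq_iff.2 ?_⟩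
  rw [k, map_add, map_smul, iv.2]; simp

variable (C G) in
/-- the class sum operator -/
noncomputable def opD : End ℂ (V × V → ℂ) := ∑ t ∈ TS C G, (1 - LinearMap.funLeft ℂ ℂ fun b : V × V => t • b)
theorem opD_eq (φ : V × V → ℂ) : opD C G φ = ∑ t ∈ TS C G, (φ - fun b => φ (t • b)) := by
  rw [opD, LinearMap.sum_apply]; rfl
theorem opD_apply (φ : V × V → ℂ) (b : V × V) : opD C G φ b = ∑ t ∈ TS C G, (φ b - φ (t • b)) := by
  rw [opD_eq, Finset.sum_apply]; rfl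
theorem opD_sym (φ ψ : V × V → ℂ) : opD C G φ ⬝ᵥ star ψ = φ ⬝ᵥ star (opD C G ψ) := by
  simp only [opD_eq, star_sum, star_sub, sum_dotProduct, dotProduct_sum, sub_dotProduct, dotProduct_sub, Finset.sum_sub_distrib]
  congr 1
  refine Finset.sum_nbij' (·⁻¹) (·⁻¹) ts_inv ts_inv (by simp) (by simp) fun t _ => ?_
  rw [dotProduct, dotProduct, ← Equiv.sum_comp (MulAction.toPerm t) fun b => φ b * _]
  simp

section
variable (U : Un C G) (fo1 : FO1 C) (fo2 : FO2 C) (fo3 : FO3 C G) {φ : V × V → ℂ}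
local notation "𝐧" => finrank F V
include U fo1 fo2 fo3
theorem efS (h : φ ∈ EF C H) : opS C φ ∈ EF C H ∧ opA C φ ∈ EF C H := by
  obtain ⟨a1, a2, -, -, -, -, a3⟩ := (fo1 U.toGe).2 φ h.1
  have k : ∀ g ∈ H, (fun b => φ (g • b)) = φ := fun g m => funext (h.2.1 g m)
  exact ⟨⟨a1, fun g m b => by rw [← congrFun ((fo3 U φ h.1).1 g).2.1 b, k g m], by rw [a3, h.2.2, mul_zero]⟩,
    a2, fun g m b => by rw [← congrFun ((fo3 U φ h.1).1 g).2.2 b, k g m], by rw [(fo2 U.toGe φ h.1).2.1, h.2.2, mul_zero]⟩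
theorem opD_S (h : φ ∈ FF C) : opS C (opD C G φ) = opD C G (opS C φ) ∧ opA C (opD C G φ) = opD C G (opA C φ) := by
  simp only [opD_eq, map_sum, map_sub, fun t => ((fo3 U φ h).1 t).2.1, fun t => ((fo3 U φ h).1 t).2.2, and_self]
theorem opD_f (h : φ ∈ FF C) : opD C G φ = ((q : ℂ) - 1) • ((((q : ℂ) ^ 2 + q ^ 4) * q ^ (2 * 𝐧 - 7)) • φ -
    (q : ℂ) ^ 2 • opA C φ - opS C (opA C (opS C φ))) := funext fun b => (opD_apply φ b).trans ((fo3 U φ h).2 b)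
theorem cub (h : φ ∈ FF C) : Px C ((opA C - av q 𝐧 1 • 1 : End ℂ _) ((opA C - av q 𝐧 2 • 1 : End ℂ _) φ)) := by
  convert (fo2 U.toGe φ h).2.2 using 1
  have := U.n6
  simp only [av, show 2 * 𝐧 - 9 = (𝐧 - 4) + (𝐧 - 5) by omega, pow_add, Matrix.cons_val, LinearMap.sub_apply, LinearMap.smul_apply,
    End.one_apply, map_sub, map_smul]
  module
theorem px_of (e : opA C φ = av q 𝐧 0 • φ) (h : φ ∈ FF C) : Px C φ := fun x y y' f f' => by
  have i := (ar2 U.q3 U.n6).1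
  have := cub U fo1 fo2 fo3 h x y y' f f'
  simp only [LinearMap.sub_apply, LinearMap.smul_apply, End.one_apply, map_sub, map_smul, e, Pi.sub_apply, Pi.smul_apply,
    smul_eq_mul] at this
  exact mul_left_cancel₀ (mul_ne_zero (sub_ne_zero.2 (i.ne (show 0 ≠ 1 by decide))) (sub_ne_zero.2 (i.ne (show 0 ≠ 2 by decide))))
    (by linear_combination this)

theorem step {W : Submodule ℂ (V × V → ℂ)} (l : W ≤ EF C H) (w0 : W ≠ ⊥) (hS : ∀ φ ∈ W, opS C φ ∈ W) (hA : ∀ φ ∈ W, opA C φ ∈ W)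
    {c : ℂ} (hc : ∀ φ ∈ W, (q : ℂ) ^ 2 • opA C φ + opS C (opA C (opS C φ)) = c • φ) :
    (∀ φ ∈ W, opS C φ = (q : ℂ) ^ 2 • φ → opS C ((((q : ℂ) ^ 2) ^ 2 + q ^ 2) • opA C φ - c • φ) =
      -((((q : ℂ) ^ 2) ^ 2 + q ^ 2) • opA C φ - c • φ)) ∧
    ((∃ i, i ≠ 0 ∧ (c = ((q ^ 2) ^ 2 + q ^ 2) * av q 𝐧 i ∨ c = (q ^ 2 + 1) * av q 𝐧 i) ∧ ∀ φ ∈ W, opA C φ = av q 𝐧 i • φ) ∨
      ∃ i j, i ≠ j ∧ c = q ^ 2 * (av q 𝐧 i + av q 𝐧 j) ∧
        (∀ φ ∈ W, (opA C - av q 𝐧 i • 1 : End ℂ _) ((opA C - av q 𝐧 j • 1 : End ℂ _) φ) = 0) ∧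
        finrank ℂ W = 2 * finrank ℂ ↥(W ⊓ LinearMap.ker (opS C - (q : ℂ) ^ 2 • .id)) ∧
        finrank ℂ W = 2 * finrank ℂ ↥(W ⊓ LinearMap.ker (opA C - av q 𝐧 i • .id)) ∧
        finrank ℂ W = 2 * finrank ℂ ↥(W ⊓ LinearMap.ker (opA C - av q 𝐧 j • .id))) := by
  have := Submodule.nontrivial_iff_ne_bot.2 w0
  obtain ⟨i1, i2, i3⟩ := ar2 U.q3 U.n6
  have q3 := U.q3
  obtain ⟨h1, h2⟩ := H22.RU.la W ((opS C).restrict hS) ((opA C).restrict hA) (q ^ 2) c (av q 𝐧)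
    (pow_ne_zero _ (Nat.cast_ne_zero.2 (by omega))) (by exact_mod_cast Nat.succ_ne_zero (q ^ 2)) i1 i2 i3
    (LinearMap.ext fun φ => Subtype.ext ((fo1 U.toGe).2 φ (l φ.2).1).2.2.1) (LinearMap.ext fun φ => Subtype.ext (by
      have f := (l φ.2).1
      have g : ∀ {ψ} (a : ℂ), ψ ∈ FF C → (opA C - a • 1 : End ℂ _) ψ ∈ FF C := fun a m =>
        sub_mem ((fo1 U.toGe).2 _ m).2.1 (Submodule.smul_mem _ _ m)
      exact sub_eq_zero.2 ((fo2 U.toGe _ (g _ (g _ f))).1 (cub U fo1 fo2 fo3 f)))) (LinearMap.ext fun φ => Subtype.ext (hc φ φ.2))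
  have z : ∀ φ ∈ W, opA C φ = av q 𝐧 0 • φ → opS C φ = (q : ℂ) ^ 2 • φ ∨ opS C φ = -φ → φ = 0 := fun φ m e k => by
    have p := px_of U fo1 fo2 fo3 e (l m).1
    obtain ⟨-, -, -, a1, a2, a3, -⟩ := (fo1 U.toGe).2 φ (l m).1
    refine k.elim (fun k => ?_) (a3 p)
    obtain ⟨d, rfl⟩ := a2 p (a1.1 k)
    have := (l m).2.2
    simp only [Pi.smul_apply, smul_eq_mul, ← Finset.mul_sum, e1, Finset.sum_boole, mul_eq_zero, Nat.cast_eq_zero,
      Finset.card_eq_zero, Finset.filter_eq_empty_iff] at this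
    rcases this with rfl | r
    exacts [zero_smul .., funext fun b => by simp [e1, r (Finset.mem_univ b)]]
  have fr : ∀ (f : End ℂ (V × V → ℂ)) (hf : ∀ φ ∈ W, f φ ∈ W) (a : ℂ),
      finrank ℂ (LinearMap.ker (f.restrict hf - a • 1)) = finrank ℂ ↥(W ⊓ LinearMap.ker (f - a • .id)) := fun f hf a => by
    rw [← Submodule.map_comap_subtype, Submodule.finrank_map_subtype_eq]
    exact congrArg (fun p : Submodule ℂ W => finrank ℂ p) (Submodule.ext fun φ => Subtype.ext_iff)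
  have v : ∀ {f g : End ℂ W}, f = g → ∀ φ (m : φ ∈ W), (f ⟨φ, m⟩).1 = (g ⟨φ, m⟩).1 := fun e _ _ => by rw [e]
  refine ⟨fun φ m e => congrArg Subtype.val (h1 ⟨φ, m⟩ (Subtype.ext e)), ?_⟩
  rcases h2 with ⟨i, e, a, b⟩ | ⟨i, e, a, b⟩ | ⟨i, j, n, e, a, b⟩
  · exact .inl ⟨i, by rintro rfl; exact w0 ((Submodule.eq_bot_iff _).2 fun φ m => z φ m (v b φ m) (.inl (v a φ m))), .inl e, v b⟩
  · exact .inl ⟨i, by rintro rfl; exact w0 ((Submodule.eq_bot_iff _).2 fun φ m => z φ m (v b φ m) (.inr (v a φ m))), .inr e, v b⟩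
  · exact .inr ⟨i, j, n, e, v a, by simpa only [fr] using b⟩
end

open scoped ComplexOrder in
theorem ft (heis : HEIS C H) (fo1 : FO1 C) (fo2 : FO2 C) (fo3 : FO3 C G) : FT C H := fun U h3 qi => by
  refine (em _).imp_right fun E0 => ?_
  have q3 := U.q3
  have n6 := U.n6
  have q1 : (q : ℂ) - 1 ≠ 0 := sub_ne_zero.2 (Nat.cast_ne_one.2 (by omega))
  have eS := fun φ (h : φ ∈ EF C H) => efS U fo1 fo2 fo3 h
  have eD : ∀ φ ∈ EF C H, opD C G φ ∈ EF C H := fun φ h => opD_f U fo1 fo2 fo3 h.1 ▸ Submodule.smul_mem _ _ (sub_mem (sub_mem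
    (Submodule.smul_mem _ _ h) (Submodule.smul_mem _ _ (eS _ h).2)) (eS _ (eS _ (eS _ h).1).2).1)
  set T0 : ℂ := (q ^ 2 + q ^ 4) * q ^ (2 * finrank F V - 7) with hT
  have hc : ∀ {η : ℂ} φ, φ ∈ EF C H → opD C G φ = η • φ →
      (q : ℂ) ^ 2 • opA C φ + opS C (opA C (opS C φ)) = (T0 - η / (q - 1)) • φ := fun {η} φ m e => by
    rw [opD_f U fo1 fo2 fo3 m.1, ← hT] at e
    rw [sub_smul, div_eq_inv_mul, mul_smul _ η, ← e, inv_smul_smul₀ q1]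
    abel
  have ty' : ∀ {η φ b}, φ ∈ EF C H → φ ≠ 0 → opD C G φ = η • φ → Val q (finrank F V) b (T0 - η / (q - 1)) →
      Ty H (TS C G) η (Yo G φ) ∧ q ∣ finrank ℂ (Yo G φ) ∧ (b → Gd C H) := fun {η φ b} m n e ⟨j, k, h1, h2, h3, h4⟩ => by
    have e' : η = (q - 1) * q ^ j * k := by rw [mul_assoc, ← h3, ← hT, sub_sub_cancel, mul_div_cancel₀ _ q1]
    have nd : ¬ (q : ℤ) ∣ k := fun d => by have := Int.isUnit_iff.1 (h2.symm.isUnit_of_dvd d); omega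
    have q0 : (q : ℂ) ^ j ≠ 0 := pow_ne_zero _ (Nat.cast_ne_zero.2 (by omega))
    have t := ty G _ H (TS C G) η φ (ts_conj U) n (e' ▸ mul_ne_zero (mul_ne_zero q1 q0) (Int.cast_ne_zero.2 fun r => nd (r ▸ dvd_zero _)))
      m.2.1 fun b => (opD_apply φ b).symm.trans (congrFun e b)
    have d := (heis U η _ t).2 j k h1 h2 e'
    have ne : ∀ (i : ℕ) (x : ℤ), j ≤ i → η = (q - 1) * q ^ i * x → k = q ^ (i - j) * x := fun i x l r => Int.cast_injective (α := ℂ)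
      (mul_left_cancel₀ (mul_ne_zero q1 q0) (by rw [← e', r, ← Nat.add_sub_cancel' l, pow_add]; push_cast; simp [mul_assoc]))
    have ne' : ∀ (i : ℕ) (x : ℤ), j < i → η ≠ (q - 1) * q ^ i * x := fun i x l r =>
      nd (ne i x l.le r ▸ (dvd_pow_self _ (by omega)).mul_right _)
    refine ⟨t, d, fun hb => ⟨η, _, t, d, by simpa using ne' _ 1 (by omega), ne' _ _ (by omega), .inl fun r => ?_⟩⟩
    rcases h1.eq_or_lt with l | l
    · exact h4 hb l (by simpa [← l] using ne _ _ (by omega) r)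
    · exact ne' _ _ (by omega) r
  obtain ⟨v1, v2⟩ := ar3 q3 n6
  have val : ∀ {η φ}, φ ∈ EF C H → φ ≠ 0 → opD C G φ = η • φ → Ty H (TS C G) η (Yo G φ) ∧ q ∣ finrank ℂ (Yo G φ) :=
      fun {η φ} m n e => by
    have k : ∀ {ψ}, ψ ∈ EF C H ⊓ End.eigenspace (opD C G) η ↔ ψ ∈ EF C H ∧ opD C G ψ = η • ψ :=
      and_congr_right fun _ => End.mem_eigenspace_iff
    have : ∃ b, Val q (finrank F V) b (T0 - η / (q - 1)) := by
      rcases (step U fo1 fo2 fo3 inf_le_left ((Submodule.ne_bot_iff _).2 ⟨φ, k.2 ⟨m, e⟩, n⟩)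
        (fun ψ r => k.2 ⟨(eS ψ r.1).1, by rw [← (opD_S U fo1 fo2 fo3 r.1.1).1, (k.1 r).2, map_smul]⟩)
        (fun ψ r => k.2 ⟨(eS ψ r.1).2, by rw [← (opD_S U fo1 fo2 fo3 r.1.1).2, (k.1 r).2, map_smul]⟩)
        fun ψ r => hc ψ r.1 (k.1 r).2).2 with ⟨i, i0, r | r, -⟩ | ⟨i, j, ij, r, -⟩ <;> rw [r]
      exacts [⟨_, (v1 i i0).1⟩, ⟨_, (v1 i i0).2⟩, ⟨_, v2 i j ij⟩]
    obtain ⟨b, hb⟩ := this
    exact ⟨(ty' m n e hb).1, (ty' m n e hb).2.1⟩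
  have eig : ∀ O : Submodule ℂ (V × V → ℂ), O ≠ ⊥ → (∀ φ ∈ O, opD C G φ ∈ O) → ∃ η, ∃ φ ∈ O, φ ≠ 0 ∧ opD C G φ = η • φ :=
      fun O n h => by
    have := Submodule.nontrivial_iff_ne_bot.2 n
    obtain ⟨η, k⟩ := End.exists_eigenvalue ((opD C G).restrict h)
    obtain ⟨φ, k⟩ := k.exists_hasEigenvector
    exact ⟨η, φ, φ.2, fun r => k.2 (Subtype.ext r), congrArg Subtype.val k.apply_eq_smul⟩
  obtain ⟨η, φ, m, n, e⟩ := eig _ E0 eD
  have all : ∀ ψ ∈ EF C H, opD C G ψ = η • ψ := fun ψ r => by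
    let O : Submodule ℂ (V × V → ℂ) :=
      { carrier := {ψ | ψ ∈ EF C H ∧ ∀ v ∈ EF C H ⊓ End.eigenspace (opD C G) η, ψ ⬝ᵥ star v = 0}
        zero_mem' := ⟨zero_mem _, by simp⟩
        add_mem' := fun h k => ⟨add_mem h.1 k.1, fun v m => by rw [add_dotProduct, h.2 v m, k.2 v m, add_zero]⟩
        smul_mem' := fun c _ h => ⟨Submodule.smul_mem _ c h.1, fun v m => by rw [smul_dotProduct, h.2 v m, smul_zero]⟩ }
    have hO : O = ⊥ := by_contra fun O0 => by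
      obtain ⟨η', χ, m', n', e'⟩ := eig O O0 fun χ h => ⟨eD χ h.1, fun v hv => by
        rw [opD_sym, End.mem_eigenspace_iff.1 hv.2, star_smul, dotProduct_smul, h.2 v hv, smul_zero]⟩
      obtain rfl : η = η' := by_contra fun ne => by
        obtain ⟨t, k, hk⟩ := val m n e
        obtain ⟨t', k', hk'⟩ := val m'.1 n' e'
        exact qi.1 ⟨k + k', by rw [← r3 G H _ _ _ _ _ h3 t t' (.inl ne), hk, hk']; push_cast; ring⟩
      exact n' (dotProduct_self_star_eq_zero.1 (m'.2 χ ⟨m'.1, End.mem_eigenspace_iff.2 e'⟩))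
    obtain ⟨w, hw, k⟩ := ex_orth (EF C H ⊓ End.eigenspace (opD C G) η) ψ
    rw [sub_eq_zero.1 (hO.le (show ψ - w ∈ O from ⟨sub_mem r hw.1, k⟩))]
    exact End.mem_eigenspace_iff.1 hw.2
  obtain ⟨s1, s2⟩ := step U fo1 fo2 fo3 le_rfl E0 (fun ψ r => (eS ψ r).1) (fun ψ r => (eS ψ r).2) fun ψ r => hc ψ r (all ψ r)
  have gd := fun b v => (ty' (b := b) m n e v).2.2
  rcases s2 with ⟨i, i0, r, a⟩ | ⟨i, j, ij, r, a, f1, f2, f3⟩
  · refine .inl ⟨gd _ (r.elim (· ▸ (v1 i i0).1) (· ▸ (v1 i i0).2)) trivial, ?_⟩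
    fin_cases i
    exacts [(i0 rfl).elim, .inl a, .inr (.inl a)]
  have k0 : finrank ℂ (EF C H) = 2 * finrank ℂ ↥(EF C H ⊓ LinearMap.ker (opA C - av q (finrank F V) 0 • .id)) →
      ∃ φ ∈ EF C H, φ ≠ 0 ∧ Px C φ := fun f => by
    obtain ⟨ψ, k, n⟩ := (Submodule.ne_bot_iff (EF C H ⊓ LinearMap.ker (opA C - av q (finrank F V) 0 • .id))).1 fun b =>
      E0 (Submodule.finrank_eq_zero.1 (by rw [f, b, finrank_bot]))
    exact ⟨ψ, k.1, n, px_of U fo1 fo2 fo3 (sub_eq_zero.1 k.2) k.1.1⟩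
  by_cases i0 : i = 0
  · subst i0; exact .inr ⟨k0 f2, f2⟩
  by_cases j0 : j = 0
  · subst j0; exact .inr ⟨k0 f3, f3⟩
  refine .inl ⟨gd _ (r ▸ v2 i j ij) ⟨i0, j0⟩, .inr (.inr ⟨fun ψ k p => ?_, f1, fun ψ k l χ hχ => ?_⟩)⟩
  · have := a ψ k
    have g := (fo2 U.toGe ψ k.1).1 p
    have i1 := (ar2 q3 n6).1
    simp only [LinearMap.sub_apply, LinearMap.smul_apply, End.one_apply, show opA C ψ = av q (finrank F V) 0 • ψ from g, ← sub_smul,
      map_smul, smul_smul] at this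
    exact (smul_eq_zero.1 this).resolve_left (mul_ne_zero (sub_ne_zero.2 (i1.ne (Ne.symm j0))) (sub_ne_zero.2 (i1.ne (Ne.symm i0))))
  · have := s1 ψ k (((fo1 U.toGe).2 ψ k.1).2.2.2.1.2 l)
    have s : av q (finrank F V) i + av q (finrank F V) j = -((-q : ℂ) ^ (finrank F V - 4) + (-q : ℂ) ^ (finrank F V - 5)) := by
      fin_cases i <;> fin_cases j <;> simp [av, add_comm] at *
    rw [r, s, show _ - _ = (q : ℂ) ^ 2 • χ by rw [hχ]; module, map_smul, ← smul_neg] at this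
    exact smul_right_injective _ (pow_ne_zero _ (Nat.cast_ne_zero.2 (by omega))) this

end H19.RU
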