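/-
S3159: the chunk QU (the centralizer of the reflection in the case of type B4).
-/
import Cfsg.Agent.H26.SX4

set_option autoImplicit false
set_option linter.unusedSectionVars false
set_option synthInstance.maxSize 4096
set_option synthInstance.maxHeartbeats 200000

namespace H19.SX
open Cfsg Subgroup H19 H23.F4
open H11.TC (Ch2)
open H26.SX
local notation "SP" => H23.F4.Sp

universe u
variable {G : Type*} [Group G] [Finite G] {b r x y z : G} {φ ψ : SP →* G} {R Y : Subgroup G} {a c p q : V} {δ : V → G}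

/-! ### the model -/

theorem tr4 (ac : ω a c = true) {u : V} (u0 : u ≠ 0) (ua : ω u a = false) (uc : ω u c = false) (q0 : q ≠ 0)
    (qa : ω q a = false) (qc : ω q c = false) : ∃ m : SP, m • a = a ∧ m • c = c ∧ m • u = q := by
  obtain ⟨g, rfl, rfl⟩ := ex_hyp ac
  have k : ∀ {v}, v ≠ 0 → ω v (g • e1) = false → ω v (g • f1) = false → ∃ m : SP, m • e1 = e1 ∧ m • f1 = f1 ∧
      (g * m) • e2 = v := fun {v} v0 h1 h2 => by
    obtain ⟨m, hm, e⟩ := mv_step ((by decide +kernel : ∀ a, a ≠ 0 → ω a e1 = false → ω a f1 = false →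
      ∃ p q, Pp [f1, e1] p ∧ Pp [f1, e1] q ∧ tf p (tf q e2) = a) (g⁻¹ • v) (smul_ne_zero_v v0)
      (by rw [← ω_smul g, smul_inv_smul, h1]) (by rw [← ω_smul g, smul_inv_smul, h2]))
    exact ⟨m, fx_TG hm _ (by simp), fx_TG hm _ (by simp), by rw [mul_smul, e, smul_inv_smul]⟩
  obtain ⟨m, m1, m2, rfl⟩ := k u0 ua uc
  obtain ⟨n, n1, n2, rfl⟩ := k q0 qa qc
  refine ⟨g * n * (g * m)⁻¹, ?_, ?_, by rw [mul_smul, inv_smul_smul]⟩
  · conv_lhs => rw [← m1, ← mul_smul g, mul_smul, inv_smul_smul, mul_smul, n1]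
  · conv_lhs => rw [← m2, ← mul_smul g, mul_smul, inv_smul_smul, mul_smul, n2]
theorem XTT (h : ω a p = false) : X a p * T a * T p = T (p + a) := ext_v fun v => by
  simp only [mul_smul, X_smul h, T_smul, ω_add_left, ω_add_right, ω_sc_left, ω_self, h, ω_comm p a]
  cases ω v p <;> cases ω v a <;> simp [add_comm, add_left_comm]
theorem sp2 (h : ω a p = false) (h' : ω a q = false) (s : Bool) :
    X a q * Tb s a * T p * (X a q * Tb s a)⁻¹ = bif ω p q then X a p * T a * T p else T p := by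
  have : Tb s a • p = p := by cases s <;> simp [Tb, T_smul, ω_comm p a, h]
  rw [conj_T, mul_smul, this, X_smul h', ω_comm p a, h, XTT h]
  cases ω p q <;> simp
theorem hypP (p : V) : ∃ a c, ω a c = true ∧ ω p a = false ∧ ω p c = false := by
  by_cases p0 : p = 0
  · exact ⟨e1, f1, rfl, by simp [p0], by simp [p0]⟩
  · obtain ⟨g, rfl⟩ := ex_one p0
    exact ⟨g • e2, g • f2, by rw [ω_smul]; rfl, by rw [ω_smul]; rfl, by rw [ω_smul]; rfl⟩
theorem XT_one (ac : ω a c = true) (pa : ω p a = false) (pc : ω p c = false) {s : Bool} (e : X a p * Tb s a = 1) :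
    p = 0 ∧ s = false := by
  have := congrArg (· • c) e
  have ca : ω c a = true := by rw [ω_comm, ac]
  have cp : ω c p = false := by rw [ω_comm, pc]
  have ap : ω a p = false := by rw [ω_comm, pa]
  cases s <;> simp only [Tb, cond_true, cond_false, mul_smul, T_smul, X_smul ap, ca, cp, ap, one_smul, ω_add_left, ω_self,
    sc_true, sc_false, add_zero, Bool.xor_false, add_assoc, add_eq_left] at this
  · exact ⟨this, rfl⟩
  · rw [add_eq_zero_v.1 this, pc] at ac; exact absurd ac (by decide)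

/-! ### the group `Q = O₂(C(r))` -/

structure QD (b r : G) (φ : SP →* G) (R : Subgroup G) : Prop where
  H : Ch2 G
  B : B4 b r φ R
  D : Q1 r ⊓ C[φ zz] ⊓ C[φ bb] ≤ zpowers r

theorem cQ (hx : x ∈ Q1 r) : Commute x r := mem_cent1.1 (Oc_le _ _ hx)
theorem pQ (r : G) : PiG {3}ᶜ (Q1 r) := (Oc_pi _ _).sing_ne (by decide)

namespace QD
variable (h : QD b r φ R)
include h
theorem F : Fc b r φ R := h.B.toFc
theorem W : Wc b φ R := h.B.toFc.toWc
theorem nQ (g : SP) : φ g ∈ N(Q1 r) := Oc_norm _ _ (mem_cent1.2 (h.F.rL g).symm)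
theorem rQ : r ∈ Q1 r := le_Oc ⟨zpowers_le.2 (mem_cent1_self r), norms_of_cents (by rw [cent_zpowers])⟩
  (piG_zpowers.2 (pe2 h.F.rr)) (mem_zpowers r)
theorem cjz (k : SP) (e : φ k * x * (φ k)⁻¹ ∈ zpowers r) : x ∈ zpowers r := by
  simpa [mul_assoc] using conj_mem_of_norm' (cent1_le_norm_zpowers r (mem_cent1.2 (h.F.rL k).symm)) e
omit h in
theorem cjc' (k : SP) {u : SP} (e : Commute x (φ u)) : Commute (φ k * x * (φ k)⁻¹) (φ (k * u * k⁻¹)) := by
  simpa using e.map (MulAut.conj (φ k))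
theorem hyp {u v : SP} (l : ∃ k ∈ [1, T e1, T e2, T e3], ∃ s t : tB, zz = k * bB u v s * k⁻¹ ∧ bb = k * bB u v t * k⁻¹)
    (hY : r ∈ Y) : Q1 r ⊓ C[φ u] ⊓ C[φ v] ≤ Y := fun x hx => by
  obtain ⟨k, -, s, t, e, e'⟩ := l
  have c : ∀ t, Commute x (φ (bB u v t)) := fun t => by
    rw [bB, map_mul, map_pow, map_pow]
    exact (Commute.pow_right (mem_cent1.1 hx.1.2) _).mul_right (Commute.pow_right (mem_cent1.1 hx.2) _)
  exact zpowers_le.2 hY (h.cjz k (h.D ⟨⟨conj_mem_of_norm (h.nQ k) hx.1.1, mem_cent1.2 (e ▸ cjc' k (c s))⟩,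
    mem_cent1.2 (e' ▸ cjc' k (c t))⟩))
theorem gen (hY : r ∈ Y) (h1 : Q1 r ⊓ C[φ d1] ≤ Y) (h2 : Q1 r ⊓ C[φ d2] ≤ Y) (h3 : Q1 r ⊓ C[φ d3] ≤ Y) : Q1 r ≤ Y := by
  have k : ∀ {u}, Commute d3 u ∧ Commute d1 u ∧
      (∃ k ∈ [1, T e1, T e2, T e3], ∃ s t : tB, zz = k * bB u (d3 * d1) s * k⁻¹ ∧ bb = k * bB u (d3 * d1) t * k⁻¹) ∧
      (∃ k ∈ [1, T e1, T e2, T e3], ∃ s t : tB, zz = k * bB u (d3 * d1⁻¹) s * k⁻¹ ∧ bb = k * bB u (d3 * d1⁻¹) t * k⁻¹) →
      Q1 r ⊓ C[φ u] ≤ Y := fun ⟨l1, l2, l3, l4⟩ =>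
    e9 ((pQ r).infl _) (map3 d3_3) (map3 (by decide +kernel)) (h.W.cm.2 (by decide +kernel))
      (norm_inf (h.nQ _) (norm_c1 (l1.map φ))) (norm_inf (h.nQ _) (norm_c1 (l2.map φ)))
      ((inf_le_inf_right _ inf_le_left).trans h3) ((inf_le_inf_right _ inf_le_left).trans h1)
      (map_mul φ _ _ ▸ h.hyp l3 hY) (by rw [← map_inv, ← map_mul]; exact h.hyp l4 hY)
  exact e9 (pQ r) (map3 (by decide +kernel)) (map3 d2_3) (h.W.cm.2 (by decide +kernel)) (h.nQ _) (h.nQ _) h1 h2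
    (map_mul φ _ _ ▸ k (by decide +kernel)) (by rw [← map_inv, ← map_mul]; exact k (by decide +kernel))
theorem bot : R = ⊥ := by
  have k : ∀ t, wt (0, t) = 1 → Q1 r ⊓ C[φ (dA t)] ≤ C(R) := fun t e =>
    ea1 (b := b) (φ := φ) t ▸ h.W.cR ((h.B.lg _).2 e) (Oc_pi _ _)
  exact h.W.bot h.H h.F.rr h.F.r1 (fun k hk => (h.F.rR k hk).symm) (h.gen (mem_cent.2 fun k hk => (h.F.rR k hk).symm)
    (dA1 ▸ k _ rfl) (dA2 ▸ k _ rfl) (dA3 ▸ k _ rfl))
theorem toU (ac : ω a c = true) (C : Co b r φ R a c ψ) (hx : x ∈ Q1 r) (cx : Commute x (φ (T a * T c))) :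
    ∃ q s, ω q a = false ∧ ω q c = false ∧ x = ψ (X a q * Tb s a) := by
  obtain ⟨y, rfl⟩ := C.fc.toWc.m2 x cx ((Oc_pi _ _).elt hx)
  obtain ⟨g, rfl, rfl⟩ := ex_hyp ac
  have n : ∀ d, d • e1 = e1 → d • f1 = f1 → g * d * g⁻¹ ∈ N((Q1 r ⊓ C[φ (T (g • e1) * T (g • f1))]).comap ψ) :=
    fun d a1 a2 => by
    have b1 : (g * d * g⁻¹) • g • e1 = g • e1 := by rw [mul_smul, inv_smul_smul, mul_smul, a1]
    have b2 : (g * d * g⁻¹) • g • f1 = g • f1 := by rw [mul_smul, inv_smul_smul, mul_smul, a2]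
    exact norm_comap (C.ag _ b1 b2 ▸ norm_inf (h.nQ _) (norm_c1 (((comm_T_iff.2 b1).mul_right (comm_T_iff.2 b2)).map φ)))
  obtain ⟨q, s, h1, h2, rfl⟩ := Ua_ex ac (le_Ua (pi_comap C.fc.inj ((pQ r).infl _)) g
    (fun y hy => comm_T_iff.1 (C.fc.toWc.cm.1 (C.ha ▸ cQ hy.1))) (n d2 (by decide +kernel) (by decide +kernel))
    (n d3 (by decide +kernel) (by decide +kernel)) (show y ∈ _ from ⟨hx, mem_cent1.2 cx⟩))
  exact ⟨q, s, h1, h2, rfl⟩
theorem ex1 (ac : ω a c = true) : ∃ x ∈ Q1 r, Commute x (φ (T a * T c)) ∧ x ∉ zpowers r := by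
  by_contra n
  push Not at n
  have k : ∀ {a' c'}, ω a' c' = true → Q1 r ⊓ C[φ (T a' * T c')] ≤ zpowers r := fun ac' x hx => by
    obtain ⟨g, rfl, rfl⟩ := ex_hyp ac
    obtain ⟨g', rfl, rfl⟩ := ex_hyp ac'
    refine h.cjz (g * g'⁻¹) (n _ (conj_mem_of_norm (h.nQ _) hx.1) ?_)
    have := cjc' (g * g'⁻¹) (mem_cent1.1 hx.2)
    rwa [← conj_mul, conj_T, conj_T, mul_smul, mul_smul, inv_smul_smul, inv_smul_smul] at this
  have := ch h.H h.F.rr h.F.r1 (φ d1) (h.F.rL _).symm (mem_cent.2 fun y hy => by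
    rcases zp2 h.F.rr (h.gen (mem_zpowers r) (k rfl) (k rfl) (k rfl) hy) with rfl | rfl
    exacts [Commute.one_left _, h.F.rL _])
  exact absurd (h.W.inj ((not_mem3 (pQ r) (map3 (by decide +kernel)) this).trans φ.map_one.symm)) (by decide +kernel)
theorem memQ (ac : ω a c = true) (C : Co b r φ R a c ψ) (qa : ω q a = false) (qc : ω q c = false) : ψ (X a q) ∈ Q1 r := by
  by_cases q0 : q = 0
  · rw [q0, X_zero, map_one]; exact one_mem _
  obtain ⟨x, hx, cx, nx⟩ := h.ex1 ac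
  obtain ⟨u, s, ua, uc, rfl⟩ := h.toU ac C hx cx
  have rs : ψ (Tb s a) ∈ zpowers r := by rw [map_Tb, C.ha]; cases s; exacts [one_mem _, mem_zpowers r]
  obtain ⟨m, m1, m2, rfl⟩ := tr4 ac (fun e : u = 0 => nx (by rwa [e, X_zero, one_mul])) ua uc q0 qa qc
  rw [map_mul, mul_mem_cancel_right (zpowers_le.2 h.rQ rs)] at hx
  have := conj_mem_of_norm (h.nQ m) hx
  rwa [← C.ag m m1 m2, ← map_inv, ← map_mul, ← map_mul, conj_X, m1] at this
theorem gen2 (hY : r ∈ Y) (h2 : Q1 r ⊓ C[φ d2] ≤ Y) (h3 : Q1 r ⊓ C[φ d3] ≤ Y) : Q1 r ≤ Y := by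
  refine h.gen hY (fun x hx => ?_) h2 h3
  obtain ⟨ψ, C⟩ := co h.F h.B.nb (show ω e1 f1 = true from rfl)
  obtain ⟨q, s, h1, h2', rfl⟩ := h.toU rfl C hx.1 (mem_cent1.1 hx.2)
  obtain ⟨u, v, rfl, k1, k2, k3, k4, k5, k6, k7⟩ := (by decide +kernel : ∀ q, ω q e1 = false → ω q f1 = false → ∃ u v, q = u + v ∧
    ω u v = false ∧ ω u e1 = false ∧ ω u f1 = false ∧ ω v e1 = false ∧ ω v f1 = false ∧ d2 • u = u ∧ d3 • v = v) q h1 h2'
  have := X_mul (ω_comm u _ ▸ k2) (ω_comm v _ ▸ k4)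
  rw [k1, Tb, cond_false, mul_one] at this
  rw [← this, map_mul, map_mul, map_Tb, C.ha]
  have k : ∀ {d u}, d • e1 = e1 → d • f1 = f1 → d • u = u → ψ (X e1 u) ∈ C[φ d] := fun a1 a2 a3 =>
    mem_cent1.2 (C.ag _ a1 a2 ▸ ((comm_X a1 a3).map ψ).symm)
  exact mul_mem (mul_mem (h2 ⟨h.memQ rfl C k2 k3, k (by decide +kernel) (by decide +kernel) k6⟩)
    (h3 ⟨h.memQ rfl C k4 k5, k (by decide +kernel) (by decide +kernel) k7⟩)) (by cases s; exacts [one_mem _, hY])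
omit h in
theorem cjT (C : Co b r φ R a c ψ) (pa : ω p a = false) (pc : ω p c = false) (qa : ω q a = false) (s : Bool) :
    ψ (X a q * Tb s a) * φ (T p) * (ψ (X a q * Tb s a))⁻¹ = bif ω p q then ψ (X a p) * r * φ (T p) else φ (T p) := by
  rw [← C.ag _ (T_fix (ω_comm p a ▸ pa)) (T_fix (ω_comm p c ▸ pc)), ← map_inv, ← map_mul, ← map_mul,
    sp2 (ω_comm p a ▸ pa) (ω_comm q a ▸ qa), ← C.ha]
  cases ω p q <;> simp
omit h in
theorem neT (ac : ω a c = true) (C : Co b r φ R a c ψ) (pa : ω p a = false) (pc : ω p c = false) :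
    ψ (X a p) * r * φ (T p) ≠ φ (T p) := fun e => by
  rw [mul_eq_right, ← C.ha, ← map_mul, ← ψ.map_one] at e
  exact absurd (XT_one ac pa pc (s := true) (C.fc.inj e)).2 (by decide)
end QD

/-- the elements which centralize `z` and map `t` to `t` or `z * t` -/
def Yz (z t : G) (zz : z * z = 1) : Subgroup G where
  carrier := {x | Commute x z ∧ (x * t * x⁻¹ = t ∨ x * t * x⁻¹ = z * t)}
  one_mem' := ⟨Commute.one_left z, .inl (by simp)⟩
  mul_mem' := fun {x y} ⟨a1, a2⟩ ⟨b1, b2⟩ => ⟨a1.mul_left b1, by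
    have e : x * y * t * (x * y)⁻¹ = x * (y * t * y⁻¹) * x⁻¹ := by group
    have e' : x * (z * t) * x⁻¹ = z * (x * t * x⁻¹) := by rw [← mul_assoc, a1.eq]; group
    rcases a2 with a2 | a2 <;> rcases b2 with b2 | b2 <;> simp only [e, b2, e', a2, ← mul_assoc z, zz] <;> simp⟩
  inv_mem' := fun {x} ⟨a1, a2⟩ => ⟨a1.inv_left, a2.imp (fun e => by (conv_lhs => rw [← e]); group) fun e => by
    rw [← mul_right_inj z, ← mul_assoc z z, zz, ← mul_assoc, ← mul_assoc, ← a1.inv_left.eq, mul_assoc x⁻¹, ← e]; group⟩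

namespace QD
variable (h : QD b r φ R)
include h
theorem key (p : V) : ∃ z, ∀ x ∈ Q1 r, x * φ (T p) * x⁻¹ = φ (T p) ∨ x * φ (T p) * x⁻¹ = z := by
  by_cases p0 : p = 0
  · exact ⟨1, fun x _ => .inl (by simp [p0, T_zero])⟩
  obtain ⟨g, rfl⟩ := ex_one p0
  suffices ∃ z, ∀ x ∈ Q1 r, x * φ (T e1) * x⁻¹ = φ (T e1) ∨ x * φ (T e1) * x⁻¹ = z by
    obtain ⟨z, k⟩ := this
    refine ⟨φ g * z * (φ g)⁻¹, fun x hx => (k _ (conj_mem_of_norm' (h.nQ g) hx)).imp (fun e => ?_) fun e => ?_⟩ <;>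
      rw [← conj_T, map_mul, map_mul, map_inv]
    · conv_rhs => rw [← e]
      group
    · rw [← e]; group
  obtain ⟨ψ, C⟩ := co h.F h.B.nb (show ω e2 f2 = true from rfl)
  obtain ⟨χ, C'⟩ := co h.F h.B.nb (show ω e3 f3 = true from rfl)
  have e : ψ (X e2 e1) = χ (X e3 e1) := by
    obtain ⟨q, s, h1, h2, e⟩ := h.toU rfl C' (h.memQ rfl C (q := f1) rfl rfl)
      (C.ag d3 (by decide +kernel) (by decide +kernel) ▸ C.fc.toWc.cm.2 (by decide +kernel))
    have k1 := cjT C (p := e1) (q := f1) rfl rfl rfl false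
    have k2 := cjT C' (p := e1) rfl rfl h1 s
    rw [← e] at k2
    rw [Tb, cond_false, mul_one, k2, show ω e1 f1 = true from rfl, cond_true] at k1
    revert k1
    cases ω e1 q <;> intro k1
    · exact (neT rfl C rfl rfl k1.symm).elim
    · simpa using k1.symm
  have k : ∀ {a c ψ'}, ω a c = true → Co b r φ R a c ψ' → ω e1 a = false → ω e1 c = false → ψ (X e2 e1) = ψ' (X a e1) →
      ∀ zz, Q1 r ⊓ C[φ (T a * T c)] ≤ Yz (ψ (X e2 e1) * r) (φ (T e1)) zz := fun {a c ψ'} ac C h1 h2 e zz x hx => by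
    obtain ⟨q, s, k1, k2, rfl⟩ := h.toU ac C hx.1 (mem_cent1.1 hx.2)
    refine ⟨(e ▸ (Ua_comm ⟨q, s, ω_comm q a ▸ k1, rfl⟩ (X_mem (ω_comm e1 a ▸ h1))).map ψ').mul_right (cQ hx.1), ?_⟩
    rw [cjT C h1 h2 k1, e]
    cases ω e1 q; exacts [.inl rfl, .inr rfl]
  have zz : ψ (X e2 e1) * r * (ψ (X e2 e1) * r) = 1 := by
    rw [← C.ha, ← map_mul, map_sq (by decide +kernel)]
  exact ⟨_, fun x hx => (h.gen2 (Y := Yz _ (φ (T e1)) zz) ⟨(cQ (h.memQ rfl C rfl rfl)).symm.mul_right (Commute.refl r),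
    .inl (by rw [(h.F.rL _).eq, mul_inv_cancel_right])⟩ (k rfl C rfl rfl rfl zz) (k rfl C' rfl rfl e zz) hx).2⟩
end QD

/-- the module without the description of `C(r)` -/
structure MA (b r : G) (φ : SP →* G) (R : Subgroup G) (δ : V → G) : Prop where
  d0 : δ 0 = 1
  cj : ∀ g p, φ g * δ p * (φ g)⁻¹ = δ (g • p)
  mul : ∀ p q, δ p * δ q = δ (p + q) * rb r (ω p q)
  mem : ∀ p, δ p ∈ Q1 r
  co : ∀ {a c ψ}, ω a c = true → Co b r φ R a c ψ → ∀ q, ω q a = false → ω q c = false → ψ (X a q) = δ q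

theorem QD.ma (h : QD b r φ R) : ∃ δ, MA b r φ R δ := by
  classical
  choose z hz using h.key
  let δ : V → G := fun p => if p = 0 then 1 else z p * φ (T p) * r
  have d0 : δ 0 = 1 := if_pos rfl
  have hδ : ∀ p, ∀ x ∈ Q1 r, x * φ (T p) * x⁻¹ ≠ φ (T p) → δ p = x * φ (T p) * x⁻¹ * φ (T p) * r := fun p x hx n => by
    rw [(hz p x hx).resolve_left n]
    exact if_neg fun e => n (by simp [e, T_zero])
  have ex : ∀ {a c ψ}, ω a c = true → Co b r φ R a c ψ → ∀ q, q ≠ 0 → ω q a = false → ω q c = false →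
      ∃ x ∈ Q1 r, x * φ (T q) * x⁻¹ = ψ (X a q) * r * φ (T q) := fun {a c ψ} ac C q q0 h1 h2 => by
    obtain ⟨g, rfl, rfl⟩ := ex_hyp ac
    obtain ⟨m, m1, m2, rfl⟩ := tr4 ac (u := g • e2) (smul_ne_zero_v (by decide)) (by rw [ω_smul]; rfl) (by rw [ω_smul]; rfl)
      q0 h1 h2
    have k1 : ω (m • g • f2) (g • e1) = false := by rw [← m1, ω_smul, ω_smul]; rfl
    have := QD.cjT C h1 h2 k1 false
    rw [Tb, cond_false, mul_one, ω_smul, ω_smul, show ω e2 f2 = true from rfl, cond_true] at this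
    exact ⟨_, h.memQ ac C k1 (by rw [← m2, ω_smul, ω_smul]; rfl), this⟩
  have co : ∀ {a c ψ}, ω a c = true → Co b r φ R a c ψ → ∀ q, ω q a = false → ω q c = false → ψ (X a q) = δ q :=
    fun {a c ψ} ac C q h1 h2 => by
      by_cases q0 : q = 0
      · rw [q0, X_zero, d0, map_one]
      obtain ⟨x, hx, e⟩ := ex ac C q q0 h1 h2
      rw [hδ q x hx (e ▸ QD.neT ac C h1 h2), e, mul_assoc _ (φ _) (φ _), mapT, mul_one, mul_assoc, h.F.rr, mul_one]
  have cj : ∀ g p, φ g * δ p * (φ g)⁻¹ = δ (g • p) := fun g p => by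
    by_cases p0 : p = 0
    · simp [p0, d0]
    obtain ⟨a, c, ac, h1, h2⟩ := hypP p
    obtain ⟨ψ, C⟩ := H26.SX.co h.F h.B.nb ac
    obtain ⟨x, hx, e⟩ := ex ac C p p0 h1 h2
    have n := e ▸ QD.neT ac C h1 h2
    have e' : φ (T (g • p)) = φ g * φ (T p) * (φ g)⁻¹ := by rw [← conj_T, map_mul, map_mul, map_inv]
    rw [hδ p x hx n, hδ (g • p) _ (conj_mem_of_norm (h.nQ g) hx) fun k => n (by
      rwa [e', conj_inv, conj_mul, conj_mul, mul_left_inj, mul_right_inj] at k), e', ← conj_mul,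
      ← (h.F.rL g).eq, mul_inv_cancel_right]
    group
  have base : ∀ {a c}, ω a c = true → ∀ p q, ω p a = false → ω p c = false → ω q a = false →
      ω q c = false → δ p * δ q = δ (p + q) * rb r (ω p q) := fun ab p q h1 h2 h3 h4 => by
    obtain ⟨ψ, c⟩ := H26.SX.co h.F h.B.nb ab
    rw [← co ab c p h1 h2, ← co ab c q h3 h4, ← co ab c (p + q) (by simp [h1, h3]) (by simp [h2, h4]), ← map_mul,
      X_mul (ω_comm p _ ▸ h1) (ω_comm q _ ▸ h3), map_mul, map_Tb, c.ha]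
  refine ⟨δ, d0, cj, fun p q => ?_, fun p => ?_, co⟩
  · have k : ∀ (g : SP) p q, ω p e3 = false → ω p f3 = false → ω q e3 = false → ω q f3 = false →
        δ (g • p) * δ (g • q) = δ (g • p + g • q) * rb r (ω (g • p) (g • q)) := fun g p q h1 h2 h3 h4 =>
      base (a := g • e3) (c := g • f3) (by rw [ω_smul]; rfl) _ _ (by rwa [ω_smul]) (by rwa [ω_smul]) (by rwa [ω_smul])
        (by rwa [ω_smul])
    cases w : ω p q
    swap
    · obtain ⟨g, rfl, rfl⟩ := ex_hyp w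
      exact w ▸ k g _ _ rfl rfl rfl rfl
    by_cases p0 : p = 0
    · simp [p0, d0]
    by_cases q0 : q = 0
    · simp [q0, d0]
    by_cases e : q = p
    · obtain ⟨g, rfl⟩ := ex_one p0
      subst e; exact w ▸ k g _ _ rfl rfl rfl rfl
    obtain ⟨g, rfl, rfl⟩ := ex_perp p0 q0 e w
    exact w ▸ k g _ _ rfl rfl rfl rfl
  · obtain ⟨a, c, ac, h1, h2⟩ := hypP p
    obtain ⟨ψ, C⟩ := H26.SX.co h.F h.B.nb ac
    exact co ac C p h1 h2 ▸ h.memQ ac C h1 h2

theorem rb_mul (rr : r * r = 1) (s t : Bool) : rb r s * rb r t = rb r (xor s t) := by cases s <;> cases t <;> simp [rr]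

namespace MA
variable (h : QD b r φ R) (M : MA b r φ R δ)
include h M
theorem mul' (p q : V) (s t : Bool) : δ p * rb r s * (δ q * rb r t) = δ (p + q) * rb r (xor (ω p q) (xor s t)) := by
  rw [mul_assoc, ← mul_assoc (rb r s), ← (rb_comm (cQ (M.mem q)) s).eq, mul_assoc, ← mul_assoc, M.mul, mul_assoc,
    rb_mul h.F.rr, rb_mul h.F.rr]
theorem sq (p : V) (s : Bool) : δ p * rb r s * (δ p * rb r s) = 1 := by simp [M.mul' h, M.d0]
theorem inj {s t : Bool} (e : δ p * rb r s = δ q * rb r t) : p = q ∧ s = t := by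
  have := M.sq h p s
  nth_rw 2 [e] at this
  obtain ⟨a, c, ac, h1, h2⟩ := hypP (p + q)
  obtain ⟨ψ, C⟩ := H26.SX.co h.F h.B.nb ac
  rw [M.mul' h, ← M.co ac C _ h1 h2, ← C.ha, ← map_Tb, ← map_mul, ← ψ.map_one] at this
  obtain ⟨k1, k2⟩ := XT_one ac h1 h2 (C.fc.inj this)
  rw [add_eq_zero_v] at k1
  subst k1
  exact ⟨rfl, by simpa using k2⟩
theorem ex (hx : x ∈ Q1 r) : ∃ p s, x = δ p * rb r s := by
  let Y : Subgroup G := ⟨⟨⟨{x | ∃ p s, x = δ p * rb r s}, by rintro _ _ ⟨p, s, rfl⟩ ⟨q, t, rfl⟩; exact ⟨_, _, M.mul' h ..⟩⟩,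
    0, false, by simp [M.d0]⟩, by rintro _ ⟨p, s, rfl⟩; exact ⟨p, s, inv_eq_of_mul_eq_one_right (M.sq h p s)⟩⟩
  have k : ∀ {a c}, ω a c = true → Q1 r ⊓ C[φ (T a * T c)] ≤ Y := fun ac x hx => by
    obtain ⟨ψ, C⟩ := H26.SX.co h.F h.B.nb ac
    obtain ⟨q, s, h1, h2, rfl⟩ := h.toU ac C hx.1 (mem_cent1.1 hx.2)
    exact ⟨q, s, by rw [map_mul, map_Tb, C.ha, M.co ac C q h1 h2]⟩
  exact h.gen2 (Y := Y) ⟨0, true, by simp [M.d0]⟩ (k rfl) (k rfl) hx
theorem c27 : 27 ∣ #C[δ e1] := by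
  obtain ⟨ψ, C⟩ := H26.SX.co h.F h.B.nb (show ω e2 f2 = true from rfl)
  have W := C.fc.toWc
  have t : Tri (φ (T e2 * T f2)) (ψ d3) (ψ (al * al')) := ⟨W.b3, map3 d3_3, map3 (by decide +kernel), W.cb _, W.cb _,
    W.cm.2 (by decide +kernel), fun i j k e => by
      obtain ⟨k1, -, k2⟩ := W.dir (one_mem _) (i := i) (y := d3 ^ j.1 * (al * al') ^ k.1)
        (by rw [mul_one, map_mul ψ, map_pow ψ, map_pow ψ, ← mul_assoc, e])
      rw [← orderOf_dvd_iff_pow_eq_one, W.o3] at k1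
      exact ⟨Fin.ext (Nat.eq_zero_of_dvd_of_lt k1 i.2), by clear * - k2; revert j k; decide +kernel⟩⟩
  rw [← t.card.1, ← M.co rfl C e1 rfl rfl]
  exact card_dvd (sup_le (sup_le (zpowers_le.2 (mem_cent1.2 (W.cb _))) (zpowers_le.2 (mem_cent1.2 (W.cm.2 (by decide +kernel)))))
    (zpowers_le.2 (mem_cent1.2 (W.cm.2 (by decide +kernel)))))
theorem n27 : ¬ 27 ∣ #C[δ e1 * r] := by
  obtain rfl := h.bot
  obtain ⟨ψ, C⟩ := H26.SX.co h.F h.B.nb (show ω e2 f2 = true from rfl)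
  have W := C.fc.toWc
  have e3' : ψ d3 = φ d3 := C.ag _ (by decide +kernel) (by decide +kernel)
  have cc : Commute (φ d2) (φ d3) := h.W.cm.2 (by decide +kernel)
  have eb : ∀ t, bB (φ d2) (φ d3) t = ea b φ (0, 0, t) := fun t => by simp [ea1, bB, dA]
  have ind : ∀ t, bB (φ d2) (φ d3) t = 1 → t = 0 := fun t e => by
    simpa using h.W.einj ((eb t).symm.trans (e.trans h.W.zero.symm))
  have c9 := card_bB (map3 d2_3) (map3 d3_3) cc ind
  rw [← M.co rfl C e1 rfl rfl, ← C.ha, ← map_mul]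
  intro d
  have := (syl_pow (m := 8 * 4) (K := C[ψ (X e2 e1 * T e2)]) (by decide) (PiN.of_card_pow (k := 2) p3 c9)
    (sup_le (zpowers_le.2 (mem_cent1.2 (W.cb _))) (zpowers_le.2 (mem_cent1.2 (e3' ▸ W.cm.2 (by decide +kernel)))))
    fun k hk hn => ?_).dvd (PiN.prime_pow p3 3) d
  · rw [c9] at this; exact absurd this (by decide)
  obtain ⟨k1, k2⟩ := lin8 (map3 d2_3) (map3 d3_3) cc ind hn true fun t t' t0 t0' e => by
    have l : ∀ t : tB, t ≠ 0 → (Ax t ↔ IsConj b (bB (φ d2) (φ d3) t)) := fun t t0 => by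
      rw [eb, ← Lg, h.B.lg]; clear * - t0; revert t; decide
    rw [l t t0, l t' t0', ← e, eq_self true, iff_true]
    exact ⟨fun c => c.trans (isConj_iff.2 ⟨k, rfl⟩), fun c => c.trans (isConj_iff.2 ⟨k, rfl⟩).symm⟩
  have k3 : Commute (k ^ 8) (ψ (X e2 e1 * T e2)) := Commute.pow_left (mem_cent1.1 hk) 8
  obtain ⟨i, _, g, rfl, e1'⟩ := W.cent _ k1
  rw [mul_one] at e1'
  have q : ∀ {a}, Commute (k ^ 8) (ψ a) → Commute g a := fun {a} q => W.cm.1 (by
    have := ((W.cb a).pow_left i).inv_left.mul_left q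
    rwa [e1', inv_mul_cancel_left] at this)
  have g1 := q (e3' ▸ k2)
  have g2 := q k3
  obtain ⟨j, e⟩ := (by decide +kernel : ∀ a : V, d3 • a = a → (X e2 e1 * T e2) • a = a → ∀ c : V, d3 • c = c →
      (X e2 e1 * T e2) • c = c → ∀ b : V, d3 • b = b → (X e2 e1 * T e2) • b = b + c → ∀ d : V, d3 • d = d →
      (X e2 e1 * T e2) • d = d + (a + c) → ∀ e : V, SB a b c d e (d3 • e) →
      ∃ i : Fin 3, sq6 (sq6 (a, b, c, d, e, d3 • e)) = tup (d3 ^ i.1))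
      (g • e1) (cm_fix g1 (by decide +kernel)) (cm_fix g2 (by decide +kernel))
      (g • e2) (cm_fix g1 (by decide +kernel)) (cm_fix g2 (by decide +kernel))
      (g • f1) (cm_fix g1 (by decide +kernel)) (cm_add g2 (by decide +kernel))
      (g • f2) (cm_fix g1 (by decide +kernel)) (smul_add g e1 e2 ▸ cm_add g2 (by decide +kernel))
      (g • e3) (by rw [← cm_eq g1 (show d3 • e3 = f3 by decide +kernel)]; exact sb_smul g)
  rw [← cm_eq g1 (show d3 • e3 = f3 by decide +kernel)] at e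
  have e4 : g ^ 4 = d3 ^ j.1 := tup_inj (by rw [← e, show 4 = 2 * 2 from rfl, pow_mul, tup_sq, tup_sq]; rfl)
  rw [pow_mul, e1', ((W.cb g).pow_left i).mul_pow, ← map_pow ψ, e4, map_pow ψ, e3']
  exact mul_mem (mem_sup_left (pow_mem (pow_mem (mem_zpowers _) _) _)) (mem_sup_right (pow_mem (mem_zpowers _) _))
theorem nc (p0 : p ≠ 0) (q0 : q ≠ 0) (e : x * δ p * x⁻¹ = δ q * r) : False := by
  obtain ⟨g, rfl⟩ := ex_one p0
  obtain ⟨k, rfl⟩ := ex_one q0
  have : δ e1 * r = (φ k)⁻¹ * x * φ g * δ e1 * ((φ k)⁻¹ * x * φ g)⁻¹ := by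
    rw [← M.cj, ← M.cj, mul_assoc _ _ r, ← (h.F.rL k).inv_right.eq] at e
    calc _ = (φ k)⁻¹ * (φ k * δ e1 * (r * (φ k)⁻¹)) * φ k := by group
      _ = _ := by rw [← e]; group
  exact M.n27 h (by rw [this, ← cj_cent1, card_cj]; exact M.c27 h)
theorem form (c : Commute x r) : ∃ p s k, x = δ p * rb r s * φ k := by
  have mn : x ∈ N(Q1 r) := Oc_norm _ _ (mem_cent1.2 c)
  have : ∀ p, ∃ q, x * δ p * x⁻¹ = δ q := fun p => by
    by_cases p0 : p = 0
    · exact ⟨0, by simp [p0, M.d0]⟩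
    obtain ⟨q, s, e⟩ := M.ex h (conj_mem_of_norm mn (M.mem p))
    cases s
    · exact ⟨q, by simpa using e⟩
    by_cases q0 : q = 0
    · rw [q0, M.d0, one_mul, rb_true, ← mul_inv_eq_iff_eq_mul.2 c.eq, mul_left_inj, mul_right_inj] at e
      exact (p0 (M.inj h (q := 0) (s := false) (t := true) (by simp [e, M.d0])).1).elim
    · exact (M.nc h p0 q0 e).elim
  choose f hf using this
  have k : ∀ p q, f p + f q = f (p + q) ∧ ω (f p) (f q) = ω p q := fun p q => M.inj h (by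
    rw [← M.mul, ← hf, ← hf, ← hf, conj_mul, M.mul, ← conj_mul, (rb_comm c _).eq, mul_inv_cancel_right])
  have i : Function.Injective f := fun p q e => (M.inj h (s := false) (t := false) (by
    have := (hf p).trans (e ▸ (hf q).symm); simpa using this)).1
  let g : SP := ⟨Equiv.ofBijective f (Finite.injective_iff_bijective.1 i), fun p q => (k p q).1.symm, fun p q => (k p q).2⟩
  have cr : Commute (x * (φ g)⁻¹) r := c.mul_left (h.F.rL g).symm.inv_left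
  obtain ⟨p, s, e⟩ := M.ex h (ch h.H h.F.rr h.F.r1 _ cr (mem_cent.2 fun y hy => by
    obtain ⟨p, s, rfl⟩ := M.ex h hy
    obtain ⟨p, rfl⟩ := (MulAction.toPerm g).surjective p
    refine (Commute.mul_right ?_ (rb_comm cr s)).symm
    change Commute _ (δ (g • p))
    rw [commute_iff_eq, ← mul_inv_eq_iff_eq_mul]
    calc _ = x * δ p * x⁻¹ := by rw [← M.cj]; group
      _ = _ := hf p))
  exact ⟨p, s, g, by rw [← e, inv_mul_cancel_right]⟩
end MA

theorem qu : QU.{u} := by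
  intro _ G _ _ b r φ R H B D
  have h : QD b r φ R := ⟨H, B, D⟩
  obtain rfl := h.bot
  obtain ⟨δ, M⟩ := h.ma
  exact ⟨rfl, δ, M.d0, M.cj, M.mul, fun p => cQ (M.mem p), M.co, fun _ => M.form h⟩

end H19.SX
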